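import Cfsg.Agent.OddHalf.D9.EEight.AutC

/-!
# TwoF / XS / O8p: characters of the even sign vectors (helper36)
-/

set_option autoImplicit false
set_option maxRecDepth 100000

namespace Cfsg.Agent.TwoF.XS.O8p

open Cfsg.Agent.OddHalf.D9.EEight Equiv

/-- the pairing of sign vectors -/
def chiF (s ε : Sg) : ℤˣ := ∏ i, if s i = -1 then ε i else 1

theorem chiF_mul (s ε η : Sg) : chiF s (ε * η) = chiF s ε * chiF s η := by
  unfold chiF
  rw [← Finset.prod_mul_distrib]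
  refine Finset.prod_congr rfl fun i _ => ?_
  split_ifs
  · rfl
  · exact (mul_one 1).symm

theorem chiF_pm (π : Perm (Fin 8)) (s ε : Sg) : chiF (pm π s) (pm π ε) = chiF s ε :=
  Equiv.prod_comp π fun i => if s i = -1 then ε i else 1

theorem chiF_neg (s : Sg) {ε : Sg} (h : ε ∈ Ev) : chiF (-s) ε = chiF s ε := by
  have h1 : chiF (-s) ε * chiF s ε = 1 := by
    unfold chiF
    rw [← Finset.prod_mul_distrib]
    refine Eq.trans (Finset.prod_congr rfl fun i _ => ?_) (mem_Ev.1 h)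
    rcases Int.units_eq_one_or (s i) with e | e <;> simp [e]
  rw [eq_inv_of_mul_eq_one_left h1, Int.units_inv_eq_self]

/-- the character of `Ev` given by a sign vector -/
def chi (s : Sg) : Ev →* ℤˣ where
  toFun ε := chiF s ε
  map_one' := by simp [chiF]
  map_mul' ε η := chiF_mul s ε η

/-- generators of `Ev` -/
def dl (i : Fin 8) : Sg := sg i * sg 7

theorem dl_mem : ∀ i, dl i ∈ Ev := by decide +kernel

/-- generators of `Ev` -/
def dE (i : Fin 8) : Ev := ⟨dl i, dl_mem i⟩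

theorem dl_seven : dl 7 = 1 := by decide +kernel

theorem eq_prod : ∀ ε : Sg, ε ∈ Ev → ε = ∏ i, if ε i = -1 then dl i else 1 := by decide +kernel

theorem chiF_dl : ∀ (s : Sg) (i : Fin 8), s 7 = 1 → chiF s (dl i) = s i := by decide +kernel

theorem wt_neg : ∀ s : Sg, wt (-s) + wt s = 8 := by decide +kernel

/-- `(0 2 1)` -/
def c1 : Perm (Fin 8) := swap 1 2 * swap 0 1

/-- `(0 2 1)(3 5 4)` -/
def c2 : Perm (Fin 8) := c1 * (swap 4 5 * swap 3 4)

/-- the weights that are moved by `c2` -/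
def Tm (w : ℕ) : Finset Sg :=
  Finset.univ.filter fun s => s 7 = 1 ∧ (wt s = w ∨ wt s + w = 8) ∧ ∃ i, chiF s (pm c2 (dl i) * (dl i)⁻¹) ≠ 1

theorem card_Tm_two : (Tm 2).card = 27 := by decide +kernel

theorem card_Tm_four : (Tm 4).card = 33 := by decide +kernel

/-- an orbit of weights -/
def Tw (w : ℕ) : Finset Sg := Finset.univ.filter fun s => s 7 = 1 ∧ (wt s = w ∨ wt s + w = 8)

theorem card_Tw_one : (Tw 1).card = 8 := by decide +kernel

theorem card_Tw_three : (Tw 3).card = 56 := by decide +kernel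

theorem wt_even : ∀ s : Sg, s 7 = 1 → chiF s (-1) = 1 → s = 1 ∨ (wt s = 2 ∨ wt s + 2 = 8) ∨ wt s = 4 := by
  decide +kernel

theorem wt_odd : ∀ s : Sg, chiF s (-1) ≠ 1 → (∃ i, s = sg i ∨ s = -sg i) ∨ (wt s = 3 ∨ wt s + 3 = 8) := by
  decide +kernel

theorem odd_of_wt : ∀ s : Sg, (wt s = 1 ∨ wt s + 1 = 8) ∨ (wt s = 3 ∨ wt s + 3 = 8) → chiF s (-1) ≠ 1 := by
  decide +kernel

theorem wt_sg : ∀ i, wt (sg i) = 1 := by decide +kernel

theorem pm_c1_sg : pm c1 (sg 0) = sg 1 ∧ pm c1 (sg 1) = sg 2 ∧ pm c1 (sg 2) = sg 0 ∧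
    ∀ i : Fin 8, i = 0 ∨ i = 1 ∨ i = 2 ∨ pm c1 (sg i) = sg i := by decide +kernel

end Cfsg.Agent.TwoF.XS.O8p
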