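import Cfsg.Agent.TwoF.XS.O8p.KZero

/-!
# TwoF / XS / O8p: faithful modules of the cover `2².Ω₈⁺(2)` (helper36)
-/

set_option autoImplicit false

namespace Cfsg.Agent.TwoF.XS.O8p

open Module Gen Subgroup
open Cfsg.Agent.OddHalf.D9.EEight Cfsg.Agent.OddHalf.D9.EEight.Id Cfsg.Agent.OddHalf.D9.EEight.Id.Onto
open Cfsg.Agent.OddHalf.D9.EEight.Id.Main

theorem center_eq_bot_of {G : Type*} [Group G] [IsSimpleGroup G] {T : Str G} (ha : T.a ≠ 1) : center G = ⊥ := by
  refine (normal_of_characteristic (center G)).eq_bot_or_eq_top.resolve_right fun e => ?_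
  have h1 := T.s_el 1 0 0 0
  have h2 : T.el 1 0 0 0 ∈ center G := by rw [e]; exact mem_top _
  rw [mem_center_iff.1 h2, mul_inv_cancel_right] at h1
  have := (Str.el_inj ha h1).1
  omega

theorem center_S8 : center S8 = ⊥ := center_eq_bot_of pi1_a_ne

theorem central_K0 {z : K₀} (h : ∀ k, z * k = k * z) : z = 1 ∨ z = negK := by
  refine pi1_eq_one.1 (mem_bot.1 (center_S8 ▸ mem_center_iff.2 fun y => ?_))
  obtain ⟨k, rfl⟩ := pi1_surj y
  rw [← map_mul, ← h, map_mul]

theorem exists_desc {D K M : Type*} [Group D] [Group K] [Monoid M] {q : D →* K} (hq : Function.Surjective q)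
    (τ : D →* M) (h : ∀ d, q d = 1 → τ d = 1) : ∃ τ' : K →* M, ∀ d, τ' (q d) = τ d :=
  ⟨(Units.coeHom M).comp (q.liftOfSurjective hq ⟨τ.toHomUnits, fun d hd => Units.ext (h d hd)⟩), fun d =>
    congrArg Units.val (q.liftOfRightInverse_comp_apply _ (Function.rightInverse_surjInv hq)
      ⟨τ.toHomUnits, fun d hd => Units.ext (h d hd)⟩ d)⟩

theorem card_map_eq {D K : Type*} [Group D] [Group K] {q : D →* K} (hq : ∀ d, q d = 1 → d * d = 1) {A : Subgroup D}
    (hA : IsElementaryAbelian 3 A) : Nat.card (A.map q) = Nat.card A := by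
  have h1 : q.ker ⊓ A = ⊥ := eq_bot_iff.2 fun d hd => by
    have h2 := hA.2 d hd.2
    rwa [pow_three, hq d hd.1, mul_one] at h2
  rw [← relIndex_ker, ← inf_relIndex_right, h1, relIndex_bot_left]

theorem map_ne_bot {D K : Type*} [Group D] [Group K] {q : D →* K} (hq : ∀ d, q d = 1 → d * d = 1)
    {A : Subgroup D} (hA : IsElementaryAbelian 3 A) (h : A ≠ ⊥) : A.map q ≠ ⊥ := fun e =>
  h (card_eq_one.1 (by rw [← card_map_eq hq hA, e, card_bot]))

variable {D : Type*} [Group D] {V : Type*} [AddCommGroup V] [Module (ZMod 3) V] {σ : Representation (ZMod 3) D V}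

theorem neg_of {m m' : D} (hc : m * m' = m' * m) (h2 : m' * m' = 1) (h : ∀ v, σ m v = v → σ m' v = v → v = 0) {v : V}
    (hv : σ m v = v) : σ m' v = -v := by
  refine eq_neg_of_add_eq_zero_right (h _ ?_ ?_)
  · rw [map_add, hv, ← rho_mul, hc, rho_mul, hv]
  · rw [map_add, ← rho_mul, h2, rho_one, add_comm]

theorem inv_of_central {m : D} (hm : ∀ d, d * m = m * d) (B : Subgroup D) : Inv σ B (fx σ (zpowers m)) :=
  inv_fx fun d _ => XL.mem_normalizer_zpowers_of_comm (hm d)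

variable [FiniteDimensional (ZMod 3) V]

/-- the statement on one weight space of the centre -/
def Good (σ : Representation (ZMod 3) D V) (m : D) : Prop :=
  fx σ (zpowers m) ≠ ⊥ → 8 ≤ finrank (ZMod 3) (fx σ (zpowers m)) ∧
    ∀ A : Subgroup D, IsElementaryAbelian 3 A → A ≠ ⊥ → ¬ 3 ^ codOn σ (fx σ (zpowers m)) A ≤ Nat.card A

theorem good {q : D →* K₀} (hq : Function.Surjective q) {m m' : D} (hm : ∀ d, d * m = m * d) (h2 : m * m = 1)
    (h2' : m' * m' = 1) (hk : ∀ d, q d = 1 → d = 1 ∨ d = m) (hm' : q m' = negK)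
    (h : ∀ v, σ m v = v → σ m' v = v → v = 0) : Good σ m := fun h0 => by
  obtain ⟨τ, hτ⟩ := exists_desc hq (Representation.subrepresentation σ (fx σ (zpowers m))
    fun g v hv => inv_of_central hm ⊤ g trivial v hv) fun d hd => by
      rcases hk d hd with rfl | rfl
      · exact map_one _
      · exact LinearMap.ext fun v => Subtype.ext (mem_fx_zpowers.1 v.2)
  have hτ' : ∀ d (v : fx σ (zpowers m)), (τ (q d) v : V) = σ d v := fun d v => by rw [hτ]; rfl
  have hq2 : ∀ d, q d = 1 → d * d = 1 := fun d hd => by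
    rcases hk d hd with rfl | rfl
    · exact one_mul _
    · exact h2
  obtain ⟨h3, h4⟩ := minus_K (σ := τ) (fun v => Subtype.ext (by
    rw [← hm', hτ']
    exact neg_of (hm m').symm h2' h (mem_fx_zpowers.1 v.2))) (Submodule.one_le_finrank_iff.2 h0)
  refine ⟨h3, fun A hA h5 => ?_⟩
  have h6 := (h4 _ (elemAb_map hA q) (map_ne_bot hq2 hA h5)).1
  rwa [card_map_eq hq2 hA, cod_eq_codOn_range (ρ := σ) (fx σ (zpowers m)).subtype Subtype.val_injective (B := A)
    (B' := A.map q) (ρ' := τ)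
    (fun b hb => ⟨q b, ⟨b, hb, rfl⟩, hτ' b⟩) (by
      rintro _ ⟨b, hb, rfl⟩
      exact ⟨b, hb, hτ' b⟩), Submodule.range_subtype] at h6

theorem pair [Finite D] {m m' : D} (hm : ∀ d, d * m = m * d) (hm' : ∀ d, d * m' = m' * d) (g : Good σ m)
    (g' : Good σ m') (h : ∀ v, σ m v = v → σ m' v = v → v = 0) (h0 : fx σ (zpowers m) ≠ ⊥)
    (h0' : fx σ (zpowers m') ≠ ⊥) : 16 ≤ finrank (ZMod 3) V ∧ ∀ A : Subgroup D, ¬ Off 3 σ A := by
  obtain ⟨h1, h2⟩ := g h0
  obtain ⟨h1', h2'⟩ := g' h0'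
  have h3 : fx σ (zpowers m) ⊓ fx σ (zpowers m') = ⊥ :=
    eq_bot_iff.2 fun v hv => h v (mem_fx_zpowers.1 hv.1) (mem_fx_zpowers.1 hv.2)
  refine ⟨?_, fun A hA => ?_⟩
  · have h4 := Submodule.finrank_sup_add_finrank_inf_eq (fx σ (zpowers m)) (fx σ (zpowers m'))
    have h5 := Submodule.finrank_le (fx σ (zpowers m) ⊔ fx σ (zpowers m'))
    rw [h3, finrank_bot] at h4
    omega
  · obtain ⟨r, -, h4, h5⟩ := hA.exists_card
    have h6 := (codOn_sup_ge (inv_of_central hm A) (inv_of_central hm' A) h3).trans (codOn_le_cod (ρ := σ) _ A)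
    have h7 := h2 A hA.1 hA.2.1
    have h8 := h2' A hA.1 hA.2.1
    rw [h4, Nat.pow_le_pow_iff_right (by norm_num)] at h7 h8
    omega

omit [FiniteDimensional (ZMod 3) V] in
theorem mul_eq_one_of (hσ : Function.Injective σ) {m m' : D} (h2 : m * m = 1) (h2' : m' * m' = 1)
    (h0 : fx σ (zpowers m) = ⊥) (h0' : fx σ (zpowers m') = ⊥) : m * m' = 1 := by
  have key : ∀ x : D, x * x = 1 → fx σ (zpowers x) = ⊥ → ∀ v, σ x v = -v := fun x hx h v =>
    neg_of (m := 1) (by rw [one_mul, mul_one]) hx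
      (fun w _ hw => (Submodule.mem_bot _).1 (h ▸ mem_fx_zpowers.2 hw)) (rho_one σ v)
  refine hσ (LinearMap.ext fun v => ?_)
  rw [rho_mul, key m h2 h0, key m' h2' h0', neg_neg, rho_one]

variable [Finite D] {L : Type*} [Group L] (S : Core.Dat D L S8 K₀)

omit [Finite D] in
theorem n_eq : S.n = negK := (central_K0 S.ncomm).resolve_left S.hn

include S in
theorem card_le_D {A : Subgroup D} (hA : IsElementaryAbelian 3 A) : Nat.card A ≤ 81 := by
  rw [← card_map_eq (q := S.θ) (fun d hd => S.sq_θ hd) hA]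
  exact Str.card_le pi1_a_ne not_dvd_S8 (elemAb_map hA _)

/-- **faithful modules of the universal cover** -/
theorem four (hσ : Function.Injective σ) (h : ∀ v, σ S.n1 v = v → σ S.n2 v = v → v = 0) :
    16 ≤ finrank (ZMod 3) V ∧ ∀ A : Subgroup D, ¬ Off 3 σ A := by
  have m3 := mul_mem S.n1_mem S.n2_mem
  have c1 := S.comm_θ S.n1_mem
  have c2 := S.comm_θ S.n2_mem
  have c3 := S.comm_θ m3
  have s1 := S.sq_θ S.n1_mem
  have s2 := S.sq_θ S.n2_mem
  have s3 := S.sq_θ m3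
  have h31 : ∀ v, σ (S.n1 * S.n2) v = v → σ S.n1 v = v → v = 0 := fun v e1 e2 =>
    h v e2 (rho_injective σ S.n1 (by rw [← rho_mul, e1, e2]))
  have h32 : ∀ v, σ (S.n1 * S.n2) v = v → σ S.n2 v = v → v = 0 := fun v e1 e2 =>
    h v (by rwa [rho_mul, e2] at e1) e2
  have g1 : Good σ S.n1 := by
    have e : S.q1 S.n2 ≠ 1 := S.c1 ▸ S.hn
    refine good (S.surj_of_val S.n2_mem e card_K) c1 s1 s2 (fun d hd => ?_) (S.c1.trans (n_eq S)) h
    rcases S.mem_ker (S.ker_le S.n2_mem e hd) with rfl | rfl | rfl | rfl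
    · exact Or.inl rfl
    · exact Or.inr rfl
    · exact absurd hd e
    · rw [map_mul, S.a1, one_mul] at hd
      exact absurd hd e
  have g2 : Good σ S.n2 := by
    have e : S.q3 S.n1 ≠ 1 := S.a3 ▸ S.hn
    refine good (S.surj_of_val S.n1_mem e card_K) c2 s2 s1 (fun d hd => ?_) (S.a3.trans (n_eq S))
      fun v e1 e2 => h v e2 e1
    rcases S.mem_ker (S.ker_le S.n1_mem e hd) with rfl | rfl | rfl | rfl
    · exact Or.inl rfl
    · exact absurd hd e
    · exact Or.inr rfl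
    · rw [map_mul, S.c3, mul_one] at hd
      exact absurd hd e
  have g3 : Good σ (S.n1 * S.n2) := by
    have e : S.q2 S.n1 ≠ 1 := S.a2 ▸ S.hn
    refine good (S.surj_of_val S.n1_mem e card_K) c3 s3 s1 (fun d hd => ?_) (S.a2.trans (n_eq S)) h31
    rcases S.mem_ker (S.ker_le S.n1_mem e hd) with rfl | rfl | rfl | rfl
    · exact Or.inl rfl
    · exact absurd hd e
    · exact absurd hd (S.c2 ▸ S.hn)
    · exact Or.inr rfl
  by_cases z1 : fx σ (zpowers S.n1) = ⊥
  · refine pair c3 c2 g3 g2 h32 (fun z => S.ne2 ?_) fun z => S.ne3 (mul_eq_one_of hσ s1 s2 z1 z).symm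
    have := mul_eq_one_of hσ s1 s3 z1 z
    rwa [← mul_assoc, s1, one_mul, eq_comm] at this
  · by_cases z2 : fx σ (zpowers S.n2) = ⊥
    · refine pair c3 c1 g3 g1 h31 (fun z => S.ne1 ?_) z1
      have := mul_eq_one_of hσ s3 s2 z z2
      rwa [mul_assoc, s2, mul_one, eq_comm] at this
    · exact pair c1 c2 g1 g2 h z1 z2

end Cfsg.Agent.TwoF.XS.O8p
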