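import Cfsg.Agent.TwoF.XS.O8p.Comb
import Cfsg.Agent.TwoF.XL.Abs
import Cfsg.Agent.TwoF.Gen.BCov

/-!
# TwoF / XS / O8p: the weights of the frame group `2⁷ : A₈` (helper36)
-/

set_option autoImplicit false

namespace Cfsg.Agent.TwoF.XS.O8p

open Module Gen Subgroup Equiv
open Cfsg.Agent.OddHalf.D9.EEight (Sg Ev pm pmE sg m1 exists_even_perm)

theorem hom_ext {M : Type*} [CommMonoid M] {φ ψ : Ev →* M} (h : ∀ i, φ (dE i) = ψ (dE i)) : φ = ψ := by
  ext ε
  have h1 : ε = ∏ i, if (ε : Sg) i = -1 then dE i else 1 := Subtype.ext (by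
    rw [← Ev.subtype_apply (∏ i, _), map_prod]
    refine (eq_prod ε ε.2).trans (Finset.prod_congr rfl fun i _ => ?_)
    split_ifs <;> rfl)
  rw [h1, map_prod, map_prod]
  refine Finset.prod_congr rfl fun i _ => ?_
  split_ifs
  · exact h i
  · rw [map_one, map_one]

theorem Ev_sq (ε : Ev) : ε ^ 2 = 1 := Subtype.ext (funext fun i => Int.units_sq ((ε : Sg) i))

variable {k : Type*} [Field k] {G : Type*} [Group G] {V : Type*} [AddCommGroup V] [Module k V]

/-- signs in `k` -/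
def sk (k : Type*) [Field k] : ℤˣ →* kˣ := Units.map (Int.castRingHom k : ℤ →* k)

theorem sk_neg : sk k (-1) = -1 := Units.ext (by simp [sk])

theorem sk_inj (h2 : (2 : k) ≠ 0) : Function.Injective (sk k) := (injective_iff_map_eq_one _).2 fun u hu => by
  rcases Int.units_eq_one_or u with rfl | rfl
  · rfl
  · rw [sk_neg] at hu
    have h3 : (-1 : k) = 1 := by simpa using congrArg Units.val hu
    exact absurd (by linear_combination -h3) h2

/-- the characters with values in `k` -/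
def ch (k : Type*) [Field k] (s : Sg) : (⊤ : Subgroup Ev) →* kˣ :=
  (sk k).comp ((chi s).comp (⊤ : Subgroup Ev).subtype)

theorem exists_ch (χ : (⊤ : Subgroup Ev) →* kˣ) : ∃ s : Sg, s 7 = 1 ∧ χ = ch k s := by
  classical
  let s : Sg := fun i => if χ ⟨dE i, trivial⟩ = 1 then 1 else -1
  have h7 : s 7 = 1 := if_pos (by rw [← map_one χ]; congr 1; exact Subtype.ext (Subtype.ext dl_seven))
  have h1 : χ.comp topEquiv.symm.toMonoidHom = (sk k).comp (chi s) := hom_ext fun i => by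
    show χ ⟨dE i, trivial⟩ = sk k (chiF s (dl i))
    rw [chiF_dl s i h7]
    by_cases h : χ ⟨dE i, trivial⟩ = 1
    · rw [show s i = 1 from if_pos h, map_one, h]
    · rw [show s i = -1 from if_neg h, sk_neg]
      have h2 : χ ⟨dE i, trivial⟩ ^ 2 = 1 := by
        rw [← map_pow, ← map_one χ]; congr 1; exact Subtype.ext (Ev_sq _)
      have h3 : (χ ⟨dE i, trivial⟩ : k) ^ 2 = 1 := by simpa using congrArg Units.val h2
      exact Units.ext ((sq_eq_one_iff.1 h3).resolve_left fun e => h (Units.ext e))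
  exact ⟨s, h7, MonoidHom.ext fun ε => DFunLike.congr_fun h1 ε.1⟩

theorem ch_inj (h2 : (2 : k) ≠ 0) {s s' : Sg} (hs : s 7 = 1) (hs' : s' 7 = 1) (h : ch k s = ch k s') : s = s' :=
  funext fun i => by
    rw [← chiF_dl s i hs, ← chiF_dl s' i hs']
    exact sk_inj h2 (DFunLike.congr_fun h ⟨dE i, trivial⟩)

theorem ch_neg (s : Sg) : ch k (-s) = ch k s := MonoidHom.ext fun ε => congrArg (sk k) (chiF_neg s ε.1.2)

/-- the weight spaces -/
def Wt (τ : Representation k Ev V) (s : Sg) : Submodule k V := Gen.wt τ ⊤ (ch k s)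

theorem mem_Wt {τ : Representation k Ev V} {s : Sg} {v : V} :
    v ∈ Wt τ s ↔ ∀ ε : Ev, τ ε v = (sk k (chiF s ε) : k) • v :=
  ⟨fun h ε => h ⟨ε, trivial⟩, fun h ε => h ε.1⟩

theorem Wt_neg (τ : Representation k Ev V) (s : Sg) : Wt τ (-s) = Wt τ s := by rw [Wt, ch_neg, Wt]

theorem chi_m1 {τ : Representation k Ev V} {s : Sg} (h : Wt τ s ≠ ⊥) {c : k} (hc : ∀ v, τ m1 v = c • v) :
    (sk k (chiF s (-1)) : k) = c := by
  obtain ⟨v, hv, h0⟩ := Submodule.exists_mem_ne_zero_of_ne_bot h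
  exact smul_left_injective k h0 ((mem_Wt.1 hv m1).symm.trans (hc v))

variable {σ : Representation k G V} {f : Ev →* G}

theorem map_Wt {g : G} {π : Perm (Fin 8)} (h : ∀ ε, g * f ε * g⁻¹ = f (pmE π ε)) {s : Sg} {v : V}
    (hv : v ∈ Wt (σ.comp f) s) : σ g v ∈ Wt (σ.comp f) (pm π s) := mem_Wt.2 fun η => by
  obtain ⟨ε, rfl⟩ := (pmE π).surjective η
  have h1 : σ (f ε) v = _ := mem_Wt.1 hv ε
  show σ (f (pmE π ε)) (σ g v) = (sk k (chiF (pm π s) (pm π ε)) : k) • σ g v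
  rw [← h, rho_mul, rho_mul, rho_inv_apply, h1, map_smul, chiF_pm]

variable [FiniteDimensional k V]

/-- the symmetry of the frame -/
def Sym (f : Ev →* G) : Prop := ∀ π : Perm (Fin 8), Perm.sign π = 1 → ∃ g : G, ∀ ε, g * f ε * g⁻¹ = f (pmE π ε)

theorem Sym.le (H : Sym f) {s s' : Sg} {w : ℕ}
    (h : OddHalf.D9.EEight.wt s = w ∨ OddHalf.D9.EEight.wt s + w = 8)
    (h' : OddHalf.D9.EEight.wt s' = w ∨ OddHalf.D9.EEight.wt s' + w = 8) :
    finrank k (Wt (σ.comp f) s) ≤ finrank k (Wt (σ.comp f) s') := by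
  have key : ∀ s s' : Sg, OddHalf.D9.EEight.wt s = OddHalf.D9.EEight.wt s' →
      finrank k (Wt (σ.comp f) s) ≤ finrank k (Wt (σ.comp f) s') := fun s s' e => by
    obtain ⟨π, hπ, rfl⟩ := exists_even_perm e
    obtain ⟨g, hg⟩ := H π hπ
    rw [← finrank_map_rho (ρ := σ) g]
    exact Submodule.finrank_mono (by
      rintro _ ⟨v, hv, rfl⟩
      exact map_Wt hg hv)
  have h1 := wt_neg s
  by_cases e : OddHalf.D9.EEight.wt s = OddHalf.D9.EEight.wt s'
  · exact key s s' e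
  · rw [← Wt_neg]
    exact key _ _ (by omega)

theorem card_mul_le (h2 : (2 : k) ≠ 0) (τ : Representation k Ev V) (T : Finset Sg) (hT : ∀ s ∈ T, s 7 = 1)
    {B : Subgroup Ev} (hB : ∀ s ∈ T, ∃ ε ∈ B, chiF s ε ≠ 1) {m : ℕ} (hm : ∀ s ∈ T, m ≤ finrank k (Wt τ s)) :
    T.card * m ≤ cod τ B := by
  classical
  have h1 := sum_mlt_le_cod_of_le (ρ := τ) (R := ⊤) (B := B) le_top (T.image (ch k)) (fun χ hχ e => by
    obtain ⟨s, hs, rfl⟩ := Finset.mem_image.1 hχ
    obtain ⟨ε, hε, h3⟩ := hB s hs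
    exact h3 (sk_inj h2 ((e ⟨ε, trivial⟩ hε).trans (map_one _).symm)))
  rw [Finset.sum_image fun s hs s' hs' e => ch_inj h2 (hT s hs) (hT s' hs') e] at h1
  exact (Finset.card_nsmul_le_sum T _ m hm).trans h1

theorem card_top_ne (h2 : (2 : k) ≠ 0) : (Nat.card (⊤ : Subgroup Ev) : k) ≠ 0 :=
  card_ne_zero_of_exp Nat.prime_two (by exact_mod_cast h2) fun a _ => Ev_sq a

theorem iSup_Wt [IsAlgClosed k] (h2 : (2 : k) ≠ 0) (τ : Representation k Ev V) {U : Submodule k V}
    (h : ∀ s : Sg, s 7 = 1 → Wt τ s ≠ ⊥ → Wt τ s ≤ U) : U = ⊤ := by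
  rw [eq_top_iff, ← iSup_wt (ρ := τ) (R := ⊤) (fun a _ b _ => mul_comm a b) (card_top_ne h2)]
  refine iSup_le fun χ => ?_
  obtain ⟨s, hs, rfl⟩ := exists_ch χ
  by_cases e : Wt τ s = ⊥
  · exact e.le.trans bot_le
  · exact h s hs e

/-- the commutators with `c2` -/
def B2 : Subgroup Ev := ((pmE c2).toMonoidHom / MonoidHom.id Ev).range

/-- **`-1 ↦ 1`** -/
theorem plus_closed [IsAlgClosed k] (h2 : (2 : k) ≠ 0) (H : Sym f) (h1 : σ (f m1) = 1) {ε : Ev} (hε : σ (f ε) ≠ 1) :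
    27 ≤ cod (σ.comp f : Representation k Ev V) B2 := by
  obtain ⟨χ, h3, h4⟩ := exists_wt (ρ := (σ.comp f : Representation k Ev V)) (R := ⊤) (fun a _ b _ => mul_comm a b)
    (card_top_ne h2) (r := ⟨ε, trivial⟩) hε
  obtain ⟨s, hs, rfl⟩ := exists_ch χ
  have h5 : chiF s (-1) = 1 := sk_inj h2 (Units.ext ((chi_m1 (mlt_pos_iff.1 h4) (c := 1) fun v => by
    rw [one_smul]; exact LinearMap.congr_fun h1 v).trans (by simp)))
  have key : ∀ w, (OddHalf.D9.EEight.wt s = w ∨ OddHalf.D9.EEight.wt s + w = 8) →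
      (Tm w).card * 1 ≤ cod (σ.comp f : Representation k Ev V) B2 := fun w hw =>
    card_mul_le h2 _ _ (fun s' hs' => (Finset.mem_filter.1 hs').2.1)
      (fun s' hs' => by
        obtain ⟨i, hi⟩ := (Finset.mem_filter.1 hs').2.2.2
        exact ⟨_, ⟨dE i, rfl⟩, by rwa [← div_eq_mul_inv] at hi⟩)
      fun s' hs' => le_trans h4 (H.le hw (Finset.mem_filter.1 hs').2.2.1)
  rcases wt_even s hs h5 with h6 | h6 | h6
  · refine absurd ?_ h3
    show sk k (chiF s ε) = 1
    simp [h6, chiF]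
  · simpa only [card_Tm_two] using key 2 h6
  · have := key 4 (Or.inl h6)
    rw [card_Tm_four] at this
    omega

theorem orbit_le (h2 : (2 : k) ≠ 0) (H : Sym f) {s : Sg} {w : ℕ} (hw : w = 1 ∨ w = 3)
    (h : OddHalf.D9.EEight.wt s = w ∨ OddHalf.D9.EEight.wt s + w = 8) :
    (Tw w).card * finrank k (Wt (σ.comp f) s) ≤ finrank k V :=
  (card_mul_le h2 _ _ (B := ⊤) (fun s' hs' => (Finset.mem_filter.1 hs').2.1)
    (fun s' hs' => ⟨m1, trivial, odd_of_wt s' (by
      have := (Finset.mem_filter.1 hs').2.2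
      omega)⟩)
    fun s' hs' => H.le h (Finset.mem_filter.1 hs').2.2).trans (cod_le_finrank _)

omit [FiniteDimensional k V] in
theorem odd_wt (h2 : (2 : k) ≠ 0) (h1 : ∀ v, σ (f m1) v = -v) {s : Sg} (h : Wt (σ.comp f) s ≠ ⊥) :
    chiF s (-1) ≠ 1 := fun e => by
  have h3 := chi_m1 h (c := -1) fun v => by rw [neg_one_smul]; exact h1 v
  rw [e, map_one, Units.val_one] at h3
  exact h2 (by linear_combination h3)

/-- **`-1 ↦ -1`**: the dimension -/
theorem minus_closed [IsAlgClosed k] (h2 : (2 : k) ≠ 0) (H : Sym f) (h1 : ∀ v, σ (f m1) v = -v)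
    (h0 : 0 < finrank k V) : 8 ≤ finrank k V := by
  by_contra h3
  have h4 := iSup_Wt h2 (σ.comp f) (U := ⊥) fun s _ hs => by
    have h5 : 0 < finrank k (Wt (σ.comp f) s) := Submodule.one_le_finrank_iff.2 hs
    rcases wt_odd s (odd_wt h2 h1 hs) with ⟨i, h6⟩ | h6
    · have h7 := orbit_le (σ := σ) h2 H (s := s) (Or.inl rfl) (by
        have := wt_neg (sg i)
        have := wt_sg i
        rcases h6 with rfl | rfl <;> omega)
      rw [card_Tw_one] at h7
      omega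
    · have h7 := orbit_le (σ := σ) h2 H (Or.inr rfl) h6
      rw [card_Tw_three] at h7
      omega
  rw [← finrank_top, ← h4, finrank_bot] at h0
  exact lt_irrefl _ h0

omit [FiniteDimensional k V] in
theorem inv_zpowers [Finite G] {y : G} {U : Submodule k V} (h : ∀ v ∈ U, σ y v ∈ U) : Inv σ (zpowers y) U := by
  intro g hg
  obtain ⟨n, rfl⟩ := mem_powers_iff_mem_zpowers.2 hg
  intro v hv
  induction n with
  | zero => simpa using hv
  | succ n ih =>
    change σ (y ^ (n + 1)) v ∈ U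
    rw [pow_succ', rho_mul]
    exact h _ (ih (npow_mem_zpowers y n))

/-- **`-1 ↦ -1`**, small dimension: the 3-cycle -/
theorem small_closed [IsAlgClosed k] [CharP k 3] [Finite G] (h2 : (2 : k) ≠ 0) (H : Sym f) (h1 : ∀ v, σ (f m1) v = -v)
    (h0 : finrank k V < 16) {x : G} (hx : x ^ 3 = 1) (h : ∀ ε, x * f ε * x⁻¹ = f (pmE c1 ε)) :
    cod σ (zpowers x) ≤ 2 := by
  have hP : IsPGroup 3 (zpowers x) := elemAb_isPGroup (elemAb_zpowers hx)
  have h3 : ∀ i, finrank k (Wt (σ.comp f) (sg i)) ≤ 1 := fun i => by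
    have h7 := orbit_le (σ := σ) h2 H (Or.inl rfl) (Or.inl (wt_sg i))
    rw [card_Tw_one] at h7
    omega
  obtain ⟨p0, p1, p2, p3⟩ := pm_c1_sg
  set U := Wt (σ.comp f) (sg 0) ⊔ Wt (σ.comp f) (sg 1) ⊔ Wt (σ.comp f) (sg 2) with hU
  have h4 : finrank k U ≤ 3 := by
    have e1 := Submodule.finrank_add_le_finrank_add_finrank (Wt (σ.comp f) (sg 0) ⊔ Wt (σ.comp f) (sg 1))
      (Wt (σ.comp f) (sg 2))
    have e2 := Submodule.finrank_add_le_finrank_add_finrank (Wt (σ.comp f) (sg 0)) (Wt (σ.comp f) (sg 1))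
    have e3 := h3 0
    have e4 := h3 1
    have e5 := h3 2
    rw [← hU] at e1
    omega
  have h5 : Inv σ (zpowers x) U := inv_zpowers fun v hv => by
    have e : U ≤ U.comap (σ x) :=
      sup_le (sup_le (fun v hv => Submodule.mem_sup_left (Submodule.mem_sup_right (p0 ▸ map_Wt h hv)))
        fun v hv => Submodule.mem_sup_right (p1 ▸ map_Wt h hv))
        fun v hv => Submodule.mem_sup_left (Submodule.mem_sup_left (p2 ▸ map_Wt h hv))
    exact e hv
  have h6 : U ⊔ fx σ (zpowers x) = ⊤ := iSup_Wt h2 (σ.comp f) fun s _ hs => by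
    rcases wt_odd s (odd_wt h2 h1 hs) with ⟨i, h6⟩ | h6
    · have e : Wt (σ.comp f) s = Wt (σ.comp f) (sg i) := by
        rcases h6 with rfl | rfl
        · rfl
        · exact Wt_neg _ _
      rw [e] at hs ⊢
      rcases p3 i with rfl | rfl | rfl | h7
      · exact le_sup_of_le_left (le_sup_of_le_left le_sup_left)
      · exact le_sup_of_le_left (le_sup_of_le_left le_sup_right)
      · exact le_sup_of_le_left le_sup_right
      · have h8 := inf_fx_ne_bot (ρ := σ) hP (inv_zpowers fun v hv => h7 ▸ map_Wt h hv) hs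
        refine le_sup_of_le_right (inf_eq_left.1 (Submodule.eq_of_le_of_finrank_le inf_le_left ?_))
        exact (h3 i).trans (Submodule.one_le_finrank_iff.2 h8)
    · have h7 := orbit_le (σ := σ) h2 H (Or.inr rfl) h6
      have h5 : 0 < finrank k (Wt (σ.comp f) s) := Submodule.one_le_finrank_iff.2 hs
      rw [card_Tw_three] at h7
      omega
  have h7 := Submodule.finrank_sup_add_finrank_inf_eq U (fx σ (zpowers x))
  have h8 := cod_add (ρ := σ) (zpowers x)
  rw [h6, finrank_top] at h7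
  by_cases h9 : U = ⊥
  · rw [h9, finrank_bot] at h7
    omega
  · have := Submodule.one_le_finrank_iff.2 (inf_fx_ne_bot hP h5 h9)
    omega

/-! ### over the field with three elements -/

section Three

variable {V : Type*} [AddCommGroup V] [Module (ZMod 3) V] [FiniteDimensional (ZMod 3) V] [Finite G]
  {σ : Representation (ZMod 3) G V}

theorem two_ne : (2 : AlgebraicClosure (ZMod 3)) ≠ 0 := by
  exact_mod_cast card_ne_zero_closure (k := ZMod 3) (n := 2) (by decide)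

theorem plus (H : Sym f) (h1 : σ (f m1) = 1) {ε : Ev} (hε : σ (f ε) ≠ 1) {e : G} (he : e ^ 3 = 1)
    (h : ∀ ε, e * f ε * e⁻¹ = f (pmE c2 ε)) : 27 ≤ finrank (ZMod 3) V ∧ 18 ≤ cod σ (zpowers e) := by
  have h2 := plus_closed (σ := bc (AlgebraicClosure (ZMod 3)) σ) two_ne H
    (by rw [bc_apply, h1, LinearMap.baseChange_one]) (XL.bc_ne_one _ hε)
  rw [cod_comp, cod_bc] at h2
  refine ⟨h2.trans (cod_le_finrank _), ?_⟩
  have h3 := XL.cod_comm_le (ρ := σ) (R := f.range) (B := B2.map f) (a := e) (s := 3) (n := 1)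
    (by
      rintro _ ⟨a, rfl⟩ _ ⟨b, rfl⟩
      rw [← map_mul, mul_comm, map_mul])
    (card_ne_zero_of_exp Nat.prime_two (by decide) (by
      rintro _ ⟨a, rfl⟩
      rw [← map_pow, Ev_sq, map_one]))
    he (by
      rintro _ ⟨a, rfl⟩
      exact ⟨_, (h a).symm⟩)
    (by
      rintro L hL _ ⟨_, ⟨a, rfl⟩, rfl⟩
      have := hL _ ⟨a, rfl⟩
      rwa [h, ← map_inv, ← map_mul, ← div_eq_mul_inv] at this)
  omega

omit [FiniteDimensional (ZMod 3) V] [Finite G] in
theorem bc_neg {z : G} (h1 : ∀ v, σ z v = -v) (v) : bc (AlgebraicClosure (ZMod 3)) σ z v = -v := by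
  rw [bc_apply, show σ z = -1 from LinearMap.ext h1, LinearMap.baseChange_neg, LinearMap.baseChange_one]
  rfl

omit [Finite G] in
theorem minus (H : Sym f) (h1 : ∀ v, σ (f m1) v = -v) (h0 : 0 < finrank (ZMod 3) V) : 8 ≤ finrank (ZMod 3) V := by
  have h2 := minus_closed (σ := bc (AlgebraicClosure (ZMod 3)) σ) two_ne H (bc_neg h1)
  rw [finrank_baseChange] at h2
  exact h2 h0

theorem small (H : Sym f) (h1 : ∀ v, σ (f m1) v = -v) (h0 : finrank (ZMod 3) V < 16) {x : G} (hx : x ^ 3 = 1)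
    (h : ∀ ε, x * f ε * x⁻¹ = f (pmE c1 ε)) : cod σ (zpowers x) ≤ 2 := by
  have h2 := small_closed (σ := bc (AlgebraicClosure (ZMod 3)) σ) two_ne H (bc_neg h1)
    (by rwa [finrank_baseChange]) hx h
  rwa [cod_bc] at h2

end Three

end Cfsg.Agent.TwoF.XS.O8p
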