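import Cfsg.Agent.TwoF.XS.O8p.Str
import Cfsg.Agent.TwoF.XS.O8p.Frame
import Cfsg.Agent.OddHalf.D9.EEight.FtHom
import Cfsg.Agent.OddHalf.D9.EEight.Id.Main

/-!
# TwoF / XS / O8p: the modules of `K₀ = W(E₈)'` over the field with three elements (helper36)
-/

set_option autoImplicit false
set_option maxRecDepth 100000

namespace Cfsg.Agent.TwoF.XS.O8p

open Module Gen Subgroup Matrix
open Cfsg.Agent.OddHalf.D9.EEight Cfsg.Agent.OddHalf.D9.EEight.FtHom Cfsg.Agent.OddHalf.D9.EEight.Id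
open Cfsg.Agent.OddHalf.D9.EEight.Id.Gen Cfsg.Agent.OddHalf.D9.EEight.Id.Onto Cfsg.Agent.OddHalf.D9.EEight.Id.Homs
open Cfsg.Agent.OddHalf.D9.EEight.Id.Main Cfsg.Agent.OddHalf.D9.EEight.Id.HomData
open Cfsg.Agent.OddHalf.D9.EEight.Id.ModTwo (Q)
open Cfsg.Agent.SporadicRecognition.CosetCert Cfsg.Agent.SporadicRecognition.CosetCertHyp
open Cfsg.Agent.KFacts.OddLift.Basic

/-- the simple group -/
abbrev S8 : Type := ClassicalGeometry.OrthAut1.P Q

/-- words -/
noncomputable def kw (w : List ℕ) : K₀ := ev (lt (toK b1 rel1) 7) w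

theorem kw_append (u v : List ℕ) : kw (u ++ v) = kw u * kw v := ev_append _ u v

theorem kw_inv (u : List ℕ) : kw (invw iv u) = (kw u)⁻¹ := ev_invw_iv _ _ u

theorem kw_eq {u v : List ℕ} (h : isOne T1 (u ++ invw iv v) = true) : kw u = kw v := by
  rw [← mul_inv_eq_one, ← kw_inv, ← kw_append]
  exact val_toK rel1 (ev_of_isOne tab1 h)

theorem kw_neg {u : List ℕ} (h : isNeg T1 u = true) : kw u = negK := val_toK rel1 (ev_of_isNeg tab1 h)

theorem kw_cube {u : List ℕ} (h : isOne T1 (u ++ (u ++ u)) = true) : kw u ^ 3 = 1 := by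
  rw [pow_three, ← kw_append, ← kw_append]
  exact val_toK rel1 (ev_of_isOne tab1 h)

theorem kw_comm {u v : List ℕ} (h : isOne T1 (u ++ v ++ invw iv (v ++ u)) = true) : kw u * kw v = kw v * kw u := by
  rw [← kw_append, ← kw_append]
  exact kw_eq h

theorem kw_conj {g u v : List ℕ} (h : isOne T1 (g ++ u ++ invw iv g ++ invw iv v) = true) :
    kw g * kw u * (kw g)⁻¹ = kw v := by
  rw [← kw_inv, ← kw_append, ← kw_append]
  exact kw_eq h

theorem kw_conj' {g u v : List ℕ} (h : isOne T1 (g ++ u ++ invw iv g ++ invw iv (invw iv v)) = true) :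
    kw g * kw u * (kw g)⁻¹ = (kw v)⁻¹ := by
  rw [← kw_inv v]
  exact kw_conj h

/-- the word of `c` -/
def wc : List ℕ := [5, 0, 10, 6, 4, 0, 10, 9, 5, 1, 4, 8, 11, 1, 5, 7, 11, 1, 4]

/-- the word of `t` -/
def wτ : List ℕ := [13, 7, 10, 2, 6, 12, 3, 10]

/-- the word of `d` -/
def wd : List ℕ := wτ ++ wc ++ invw iv wτ

/-- the word of `s` -/
def ws : List ℕ := [0, 5, 11, 8, 6, 4, 0, 10, 0, 4, 3, 0]

/-- the word of `g` -/
def wg : List ℕ := [5, 0, 7, 8, 10, 4, 1]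

/-- the word of `h` -/
def wh : List ℕ := [6, 13, 1, 10, 4]

/-- the data in `K₀` -/
noncomputable def T0 : Str K₀ where
  a := kw [2]
  b := kw [8]
  c := kw wc
  d := kw wd
  s := kw ws
  p := kw [7, 5]
  q := kw [0, 10, 3, 0]
  t := kw wτ
  g := kw wg
  a3 := kw_cube (by decide +kernel)
  b3 := kw_cube (by decide +kernel)
  c3 := kw_cube (by decide +kernel)
  d3 := kw_cube (by decide +kernel)
  s3 := kw_cube (by decide +kernel)
  ab := kw_comm (by decide +kernel)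
  ac := kw_comm (by decide +kernel)
  ad := kw_comm (by decide +kernel)
  bc := kw_comm (by decide +kernel)
  bd := kw_comm (by decide +kernel)
  cd := kw_comm (by decide +kernel)
  sa := kw_conj (by decide +kernel)
  sb := kw_conj (by decide +kernel)
  sc := kw_conj (by decide +kernel)
  sd := kw_conj (by decide +kernel)
  pa := kw_conj' (by decide +kernel)
  pb := kw_conj' (by decide +kernel)
  pc := kw_conj (by decide +kernel)
  pd := kw_conj (by decide +kernel)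
  qa := kw_conj' (by decide +kernel)
  qb := kw_conj (by decide +kernel)
  qc := kw_conj' (by decide +kernel)
  qd := kw_conj (by decide +kernel)
  ta := kw_conj (by decide +kernel)
  tb := kw_conj (by decide +kernel)
  tc := kw_conj (by decide +kernel)
  td := kw_conj (by decide +kernel)
  gz := by
    rw [← kw_append, ← kw_append]
    exact kw_conj (by decide +kernel)
  gd := kw_conj (by decide +kernel)
  gs := by
    rw [← kw_inv [8], ← kw_append [2]]
    exact kw_conj (by decide +kernel)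

theorem h_el : kw wh * (T0.a * (T0.b * (T0.c * T0.d))) * (kw wh)⁻¹ = T0.a * (T0.b * (T0.c⁻¹ * T0.d⁻¹)) := by
  show kw wh * (kw [2] * (kw [8] * (kw wc * kw wd))) * (kw wh)⁻¹ = kw [2] * (kw [8] * ((kw wc)⁻¹ * (kw wd)⁻¹))
  rw [← kw_inv wc, ← kw_inv wd, ← kw_append wc, ← kw_append [8], ← kw_append [2], ← kw_append (invw iv wc),
    ← kw_append [8], ← kw_append [2]]
  exact kw_conj (by decide +kernel)

theorem neg_eq : (T0.a * (kw wh * T0.a * (kw wh)⁻¹)) ^ 3 * (T0.d * (kw wh * T0.d⁻¹ * (kw wh)⁻¹)) ^ 3 = negK := by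
  show (kw [2] * (kw wh * kw [2] * (kw wh)⁻¹)) ^ 3 * (kw wd * (kw wh * (kw wd)⁻¹ * (kw wh)⁻¹)) ^ 3 = negK
  simp only [pow_three, ← kw_inv, ← kw_append]
  exact kw_neg (by decide +kernel)

theorem coe_a : (T0.a : W) = t 1 := by
  show ((kw [2] : K₀) : W) = _
  rw [kw, coe_ev_toK, ev_cons, ev_nil, mul_one, lt_even _ _ (by norm_num) (by norm_num)]
  rfl

theorem coe_b : (T0.b : W) = t 4 := by
  show ((kw [8] : K₀) : W) = _
  rw [kw, coe_ev_toK, ev_cons, ev_nil, mul_one, lt_even _ _ (by norm_num) (by norm_num)]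
  rfl

/-- the frame -/
def nv : Fin 8 → Fin 8 → ℤ := ![![0, 1, -1, 0, 0, 0, 0, 0], ![0, 1, 1, 0, 0, 0, 0, 0], ![0, 1, 1, 2, 0, 0, 0, 0],
  ![0, 1, 1, 2, 2, 0, 0, 0], ![0, 1, 1, 2, 2, 2, 0, 0], ![0, 1, 1, 2, 2, 2, 2, 0], ![0, 1, 1, 2, 2, 2, 2, 2],
  ![4, 5, 7, 10, 8, 6, 4, 2]]

theorem fr4 : Fr4 nv where
  gram := by
    unfold form
    decide +kernel
  cong := fun i j => ⟨fun k => (nv i k - nv j k) / 2, by
    revert i j
    decide +kernel⟩

/-- the frame group -/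
noncomputable def fK : Ev →* K₀ := (fh fr4).codRestrict K₀ (det_fh fr4)

theorem sym_fK : Sym fK := fun π hπ => by
  obtain ⟨w, h1, h2⟩ := (isFt fr4).sym π hπ
  exact ⟨⟨w, h1⟩, fun ε => Subtype.ext (h2 ε)⟩

theorem fK_inj : Function.Injective fK := fun _ _ e => fh_inj fr4 (congrArg Subtype.val e)

theorem fK_m1 : fK m1 = negK := Subtype.ext (fh_m1 fr4)

theorem conj_a (ε : Ev) : T0.a * fK ε * T0.a⁻¹ = fK (pmE c1 ε) := Subtype.ext (conj_eq4 fr4 (fun i => by
  rw [coe_a, t_eq, ap_mkW]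
  revert i
  decide +kernel) ε)

theorem conj_ab (ε : Ev) : T0.a * T0.b * fK ε * (T0.a * T0.b)⁻¹ = fK (pmE c2 ε) :=
  Subtype.ext (conj_eq4 fr4 (w := T0.a * T0.b) (fun i => by
    rw [ap_mul, coe_a, coe_b, t_eq, t_eq, ap_mkW, ap_mkW]
    revert i
    decide +kernel) ε)

theorem a_ne : T0.a ≠ 1 := fun h => by
  have h1 := conj_a (dE 0)
  rw [h, one_mul, inv_one, mul_one] at h1
  have h2 : dl 0 = pm c1 (dl 0) := congrArg Subtype.val (fK_inj h1)
  exact absurd h2 (by decide +kernel)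

theorem pi1_a_ne : (T0.map pi1).a ≠ 1 := fun h => by
  rcases pi1_eq_one.1 h with e | e
  · exact a_ne e
  · have h1 := T0.a3
    rw [e, pow_three, negK_mul_self, mul_one] at h1
    exact negK_ne_one h1

theorem pi1_dE_ne : pi1 (fK (dE 0)) ≠ 1 := fun h => by
  rcases pi1_eq_one.1 h with e | e
  · rw [← map_one fK] at e
    have h2 : dl 0 = 1 := congrArg Subtype.val (fK_inj e)
    exact absurd h2 (by decide +kernel)
  · rw [← fK_m1] at e
    have h2 : dl 0 = -1 := congrArg Subtype.val (fK_inj e)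
    exact absurd h2 (by decide +kernel)

theorem card_K0 : Nat.card K₀ = 348364800 := by rw [card_K, card_P]

theorem finite_K0 : Finite K₀ := Nat.finite_of_card_ne_zero (by rw [card_K0]; norm_num)

theorem not_dvd_K0 : ¬ 3 ^ 6 ∣ Nat.card K₀ := by rw [card_K0]; norm_num

theorem not_dvd_S8 : ¬ 3 ^ 6 ∣ Nat.card S8 := by rw [card_P]; norm_num

variable {V : Type*} [AddCommGroup V] [Module (ZMod 3) V] [FiniteDimensional (ZMod 3) V]

/-- **faithful modules of the simple group** -/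
theorem plus_S {σ : Representation (ZMod 3) S8 V} (hσ : Function.Injective σ) :
    27 ≤ finrank (ZMod 3) V ∧
      ∀ A : Subgroup S8, IsElementaryAbelian 3 A → A ≠ ⊥ → ¬ 3 ^ cod σ A ≤ Nat.card A ^ 4 := by
  have := finite_K0
  obtain ⟨h1, h2⟩ := plus (σ := (σ.comp pi1 : Representation (ZMod 3) K₀ V)) sym_fK
    (by rw [fK_m1, MonoidHom.comp_apply, pi1_eq_one.2 (Or.inr rfl), map_one]) (ε := dE 0)
    (fun e => pi1_dE_ne (hσ (e.trans (map_one σ).symm))) (T0.cube (mul_mem T0.a_mem T0.b_mem)) conj_ab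
  refine ⟨h1, fun A hA h3 h4 => ?_⟩
  have h5 := Str.core pi1_a_ne not_dvd_S8 σ hA h3 h4
  rw [cod_comp, MonoidHom.map_zpowers, map_mul] at h2
  have h6 := cod_mono (ρ := σ) (zpowers_le.2 (mul_mem (T0.map pi1).a_mem (T0.map pi1).b_mem))
  have h7 : 18 ≤ cod σ (T0.map pi1).E := h2.trans h6
  omega

omit [FiniteDimensional (ZMod 3) V] in
theorem cod_neg {σ : Representation (ZMod 3) K₀ V} (h : ∀ v, σ negK v = -v) :
    cod σ (zpowers negK) = finrank (ZMod 3) V := cod_of_fx_eq_bot (eq_bot_iff.2 fun v hv => by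
  have h1 := mem_fx_zpowers.1 hv
  rw [h, neg_eq_iff_add_eq_zero, ← two_smul (ZMod 3), smul_eq_zero] at h1
  exact h1.resolve_left (by decide))

/-- **modules on which `-1` acts as `-1`** -/
theorem lt_two_mul {σ : Representation (ZMod 3) K₀ V} (h : ∀ v, σ negK v = -v) (h0 : 0 < finrank (ZMod 3) V) :
    finrank (ZMod 3) V < 2 * cod σ T0.E := by
  set E' := T0.E.map (MulAut.conj (kw wh)).toMonoidHom with hE'
  have h1 : cod σ E' = cod σ T0.E := cod_conj _ _
  have mem : ∀ x ∈ T0.E, kw wh * x * (kw wh)⁻¹ ∈ E' := fun x hx => ⟨x, hx, rfl⟩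
  have h2 : zpowers negK ≤ T0.E ⊔ E' := zpowers_le.2 (neg_eq ▸ mul_mem
    (pow_mem (mul_mem (mem_sup_left T0.a_mem) (mem_sup_right (mem _ T0.a_mem))) 3)
    (pow_mem (mul_mem (mem_sup_left T0.d_mem) (mem_sup_right (mem _ (inv_mem T0.d_mem)))) 3))
  have h3 := cod_mono (ρ := σ) h2
  have h4 := cod_sup_add_inf (ρ := σ) T0.E E'
  rw [cod_neg h] at h3
  rcases Nat.eq_zero_or_pos (cod σ (T0.E ⊓ E')) with h5 | h5
  · have h6 : T0.a * (T0.b * (T0.c⁻¹ * T0.d⁻¹)) ∈ T0.E :=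
      mul_mem T0.a_mem (mul_mem T0.b_mem (mul_mem (inv_mem T0.c_mem) (inv_mem T0.d_mem)))
    have h7 := cod_eq_zero_iff.1 h5 (mem_inf.2 ⟨h6,
      h_el ▸ mem _ (mul_mem T0.a_mem (mul_mem T0.b_mem (mul_mem T0.c_mem T0.d_mem)))⟩)
    have hn := (MonoidHom.normal_ker σ).conj_mem
    have h8 := T0.irr (N := σ.ker) (fun u hu => hn u hu _) (fun u hu => hn u hu _) (fun u hu => hn u hu _)
      (fun u hu => hn u hu _) h7 h6 fun e => by
        have := (Str.el_eq_one a_ne (i := 1) (j := 1) (k := -1) (l := -1) (by simpa [Str.el] using e)).1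
        omega
    have h9 := cod_eq_zero_iff.2 h8
    omega
  · omega

theorem minus_K {σ : Representation (ZMod 3) K₀ V} (h : ∀ v, σ negK v = -v) (h0 : 0 < finrank (ZMod 3) V) :
    8 ≤ finrank (ZMod 3) V ∧ ∀ A : Subgroup K₀, IsElementaryAbelian 3 A → A ≠ ⊥ →
      (¬ 3 ^ cod σ A ≤ Nat.card A) ∧ (3 ^ cod σ A ≤ Nat.card A ^ 2 → cod σ (zpowers T0.a) ≤ 2) := by
  have := finite_K0
  have h1 := minus sym_fK (fK_m1 ▸ h) h0
  have h2 := lt_two_mul h h0
  refine ⟨h1, fun A hA h3 => ⟨fun h4 => ?_, fun h4 => ?_⟩⟩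
  · have := Str.core a_ne not_dvd_K0 σ hA h3 (n := 1) (by rwa [pow_one])
    omega
  · have := Str.core a_ne not_dvd_K0 σ hA h3 h4
    exact small sym_fK (fK_m1 ▸ h) (by omega) T0.a3 conj_a

end Cfsg.Agent.TwoF.XS.O8p
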