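import Cfsg.Agent.TwoF.XS.O8p.Four
import Cfsg.Agent.TwoF.XS.Defs
import Cfsg.Agent.OddHalf.D9.EEight.RowFinal
import Cfsg.Agent.OddHalf.D9.EEight.Id.InnerCore
import Cfsg.Agent.H63.EightTwo
import Cfsg.Agent.H100.Gs.RowOmega
import Cfsg.Agent.S0817

/-!
# TwoF / XS / O8p: `Ω₈⁺(2)`, `p = 3` (helper36)

`Z(K) = 1`, `|Z(K)| = 4`: no offenders.  `|Z(K)| = 2`: an offender lies in `K = W(E₈)'`, the dimension is less than 16 and a
3-cycle generates a cubic offender.
-/

set_option autoImplicit false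

namespace Cfsg.Agent.TwoF.XS.O8p

open Module Gen Subgroup
open Cfsg.Agent.OddHalf.D9.EEight Cfsg.Agent.OddHalf.D9.EEight.Id Cfsg.Agent.OddHalf.D9.EEight.Id.Onto
open Cfsg.Agent.OddHalf.D9.EEight.Id.Main
open Cfsg.Agent.KFacts.OddLift.Basic (Cov)

theorem card_out : Nat.card (Out S8) = 6 := by
  obtain ⟨e⟩ := H63.EightTwo.exists_equiv
  have h := S0817.result (F := ZMod 2) 2 1 le_rfl (by simp) 4 le_rfl
  rw [Nat.card_congr (MulAut.congr e).toEquiv, Nat.card_congr e.toEquiv, XE.card_aut center_S8, card_P] at h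
  norm_num at h
  omega

theorem reach {x : MulAut S8} (hx : orderOf x = 3) : ∃ k ≤ 11, H915.Gs.Reach x k ⊤ := by
  obtain ⟨e⟩ := H63.EightTwo.exists_equiv
  rcases (H100.Gs.omega_plus (ZMod 2) 4 le_rfl).congr e 11 x (by norm_num) (by norm_num) (hx ▸ Nat.prime_three) with
    h | ⟨-, h⟩ | ⟨h, -⟩
  · exact ⟨11, le_rfl, h⟩
  · exact ⟨_, by norm_num, h⟩
  · rw [card_P] at h
    exact absurd h (by norm_num)

theorem inner_K0 {α : MulAut K₀} (h : α ^ 3 = 1) : ∃ x : K₀, ∀ k, α k = x * k * x⁻¹ := by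
  obtain ⟨w, hw⟩ := RowFinal.autConj α
  refine ⟨⟨w * (w * (w * w)), ?_⟩, fun k => Subtype.ext ?_⟩
  · rw [mem_K₀, map_mul, map_mul, map_mul, Int.units_mul_self, mul_one, Int.units_mul_self]
  · have h1 : α k = α (α (α (α k))) := by
      have := DFunLike.congr_fun h (α k)
      rw [pow_three] at this
      exact this.symm
    rw [h1, hw, hw, hw, hw]
    simp only [Subgroup.coe_mul, InvMemClass.coe_inv, mul_inv_rev, mul_assoc]

/-- an element of order 3 that does not centralise a four-group -/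
theorem klein {Y : Type*} [Group Y] [Finite Y] {Z : Subgroup Y} (h4 : Nat.card Z = 4) (h2 : ∀ z ∈ Z, z * z = 1) {a z : Y}
    (ha : a ^ 3 = 1) (hn : ∀ x ∈ Z, a * x * a⁻¹ ∈ Z) (hz : z ∈ Z) (h : a * z * a⁻¹ ≠ z) {L : Subgroup Y}
    (hL : ∀ x ∈ Z, a * x * a⁻¹ * x⁻¹ ∈ L) : Z ≤ L := by
  set g := a * z * a⁻¹ * z⁻¹ with hg
  have g1 : g ∈ Z := mul_mem (hn z hz) (inv_mem hz)
  have g2 : g ≠ 1 := fun e => h (mul_inv_eq_one.1 e)
  have g3 : a * g * a⁻¹ ≠ g := fun e => h (by
    have e1 : a * z * a⁻¹ = g * z := by rw [hg, inv_mul_cancel_right]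
    have e2 : a * (a * z * a⁻¹) * a⁻¹ = z := by
      rw [e1, show a * (g * z) * a⁻¹ = a * g * a⁻¹ * (a * z * a⁻¹) by group, e, e1, ← mul_assoc, h2 g g1, one_mul]
    calc a * z * a⁻¹ = a * (a * (a * z * a⁻¹) * a⁻¹) * a⁻¹ := by rw [e2]
      _ = a ^ 3 * z * (a ^ 3)⁻¹ := by simp only [pow_three, mul_inv_rev, mul_assoc]
      _ = z := by rw [ha, one_mul, inv_one, mul_one])
  have g4 : a * g * a⁻¹ ≠ 1 := fun e => g2 (by simpa using e)
  have g5 : a * g * a⁻¹ ∈ L := by simpa only [inv_mul_cancel_right] using mul_mem (hL g g1) (show g ∈ L from hL z hz)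
  have h5 : 2 < Nat.card ↥(L ⊓ Z) := by
    have := Fintype.ofFinite ↥(L ⊓ Z)
    rw [Nat.card_eq_fintype_card, Fintype.two_lt_card_iff]
    exact ⟨1, ⟨g, hL z hz, g1⟩, ⟨_, g5, hn g g1⟩, fun e => g2 (congrArg Subtype.val e).symm,
      fun e => g4 (congrArg Subtype.val e).symm, fun e => g3 (congrArg Subtype.val e).symm⟩
  have h6 : Nat.card ↥(L ⊓ Z) ∣ 4 := h4 ▸ card_dvd_of_le inf_le_right
  have h7 := Nat.le_of_dvd (by norm_num) h6
  have h8 : Nat.card ↥(L ⊓ Z) ≠ 3 := fun e => by rw [e] at h6; exact absurd h6 (by norm_num)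
  exact inf_eq_right.1 (eq_of_le_of_card_ge inf_le_right (by omega))

variable {Y : Type} [Group Y] [Finite Y] {V : Type} [AddCommGroup V] [Module (ZMod 3) V] [Finite V]
  {K : Subgroup Y} {ρ : Representation (ZMod 3) Y V} {π : K →* S8} {φ : Y →* MulAut S8} {A : Subgroup Y}

omit [Finite Y] in
theorem elemAb_sub (hA : IsElementaryAbelian 3 A) : IsElementaryAbelian 3 (A.subgroupOf K) :=
  elemAb_of (fun _ ha _ hb => Subtype.ext (elemAb_comm hA ha hb)) fun _ ha => Subtype.ext (hA.2 _ ha)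

omit [Finite Y] in
theorem cod_sub : cod (ρ.comp K.subtype : Representation (ZMod 3) K V) (A.subgroupOf K) ≤ cod ρ A := by
  rw [cod_comp]
  exact cod_mono (map_comap_le _ _)

omit [Finite Y] in
theorem card_sub : Nat.card (A.subgroupOf K) * K.relIndex A = Nat.card A := by
  rw [← card_map_of_injective K.subtype_injective, subgroupOf_map_subtype, inf_comm, ← subgroupOf_map_subtype,
    card_map_of_injective A.subtype_injective]
  exact card_mul_index _

variable (H : Sit 3 K ρ π φ)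
include H

omit [Finite V] in
theorem card_ker_dvd : Nat.card π.ker ∣ 4 := by
  have := H.toFrm.card_center_dvd H.toStp.perfect H63.EightTwo.main
  rw [H.ker_π]
  simpa using this

omit [Finite V] in
theorem cov : Cov π where
  surj := H.surj
  central := H.ker_π.le
  two := by
    obtain ⟨n, -, hn⟩ := (Nat.dvd_prime_pow Nat.prime_two).1 (show Nat.card π.ker ∣ 2 ^ 2 from card_ker_dvd H)
    exact IsPGroup.of_card hn
  perfect := H.toStp.perfect.commutator_eq_top

omit [Finite V] in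
theorem rel_le (hA : IsElementaryAbelian 3 A) : K.relIndex A ≤ 3 := by
  have h := H.toFrm.relIndex_dvd A
  obtain ⟨n, hn⟩ := (elemAb_isPGroup hA).exists_card_eq
  obtain ⟨m, -, hm⟩ := (Nat.dvd_prime_pow Nat.prime_three).1 (hn ▸ relIndex_dvd_card K A)
  rw [card_out, hm] at h
  rw [hm]
  rcases m with _ | _ | m
  · norm_num
  · norm_num
  · exact absurd ((pow_dvd_pow 3 (by omega : 2 ≤ m + 1 + 1)).trans h) (by norm_num)

omit [Finite Y] [Finite V] in
theorem fx_center (h : π.ker ≠ ⊥) {v : V} (hv : ∀ z : K, π z = 1 → ρ z v = v) : v = 0 := by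
  have := H.normal
  have h1 : fx ρ (centralizer (K : Set Y)) = ⊥ := H.irr.fx_eq_bot H.faithful (by rw [normalizer_eq_top]) fun e => h (by
    rwa [H.toStp.centralizer_eq, map_eq_bot_iff_of_injective _ K.subtype_injective, ← H.ker_π] at e)
  refine (Submodule.mem_bot _).1 (h1 ▸ mem_fx.2 fun b hb => ?_)
  exact hv ⟨b, H.toStp.cent hb⟩ (H.toFrm.π_eq_one_iff.2 hb)

/-- trivial centre -/
theorem case_one (h1 : π.ker = ⊥) : ¬ Off 3 ρ A := fun hA => by
  let e := MulEquiv.ofBijective π ⟨(MonoidHom.ker_eq_bot_iff π).1 h1, H.surj⟩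
  have hφ : Function.Injective φ := by
    rw [← MonoidHom.ker_eq_bot_iff, H.ker_φ, H.toStp.centralizer_eq, ← H.ker_π, h1, Subgroup.map_bot]
  obtain ⟨h2, h3⟩ := plus_S (σ := ((ρ.comp K.subtype).comp e.symm.toMonoidHom : Representation (ZMod 3) S8 V))
    ((H.faithful.comp K.subtype_injective).comp e.symm.injective)
  obtain ⟨r, hr, h4, h5⟩ := hA.exists_card
  have h6 := card_sub (K := K) (A := A)
  have h7 := rel_le H hA.1
  by_cases h0 : A.subgroupOf K = ⊥
  · rw [h0, card_bot, one_mul, h4] at h6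
    have h8 : r ≤ 1 := (Nat.pow_le_pow_iff_right (by norm_num : 1 < 3)).1 (by omega)
    obtain ⟨⟨a, ha⟩, ha1⟩ := ne_bot_iff_exists_ne_one.1 hA.2.1
    obtain ⟨k, hk, f, hf⟩ := reach (x := φ a) (orderOf_eq_prime (by rw [← map_pow, hA.1.2 a ha, map_one])
      fun e' => ha1 (Subtype.ext (hφ (e'.trans (map_one φ).symm))))
    have h9 := H.toStp.finrank_le_mul (Finset.univ : Finset (Fin k)) (fun i => (e.symm (f i) : Y)) A fun y hy => by
      have m1 : φ y ∈ H915.Gs.Gn (φ a) f := hf ⟨π ⟨y, hy⟩, trivial, (H.toFrm.φ_coe ⟨y, hy⟩).symm⟩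
      have m2 : H915.Gs.Gn (φ a) f ≤
          (⨆ i ∈ (Finset.univ : Finset (Fin k)), A.map (MulAut.conj (e.symm (f i) : Y)).toMonoidHom).map φ :=
        (closure_le _).2 (by
          rintro _ ⟨i, rfl⟩
          refine ⟨(e.symm (f i) : Y) * a * (e.symm (f i) : Y)⁻¹,
            (le_iSup₂_of_le i (Finset.mem_univ i) le_rfl : A.map (MulAut.conj (e.symm (f i) : Y)).toMonoidHom ≤ _)
              ⟨a, ha, rfl⟩, ?_⟩
          rw [map_mul, map_mul, map_inv, H.toFrm.φ_coe, show π (e.symm (f i)) = f i from e.apply_symm_apply _])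
      obtain ⟨y', hy', e'⟩ := m2 m1
      exact hφ e' ▸ hy'
    rw [Finset.card_univ, Fintype.card_fin] at h9
    have h10 : k * cod ρ A ≤ 11 * 2 := Nat.mul_le_mul hk (by omega)
    omega
  · obtain ⟨s, hs⟩ := (elemAb_isPGroup (elemAb_sub (K := K) hA.1)).exists_card_eq
    have h8 : s ≠ 0 := fun e' => h0 (card_eq_one.1 (by rw [hs, e', pow_zero]))
    have h9 : r ≤ s + 1 := (Nat.pow_le_pow_iff_right (by norm_num : 1 < 3)).1 (by
      rw [← h4, ← h6, hs, pow_succ]
      exact Nat.mul_le_mul_left _ h7)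
    refine h3 ((A.subgroupOf K).map e.toMonoidHom) (elemAb_map (elemAb_sub hA.1) _)
      (fun e' => h0 ((map_eq_bot_iff_of_injective _ e.injective).1 e')) ?_
    rw [card_map_of_injective (f := e.toMonoidHom) e.injective, cod_comp, map_map, MulEquiv.toMonoidHom_eq_coe,
      MulEquiv.toMonoidHom_eq_coe,
      MulEquiv.coe_monoidHom_symm_comp_coe_monoidHom, Subgroup.map_id, hs, ← pow_mul]
    have := cod_sub (K := K) (ρ := ρ) (A := A)
    exact Nat.pow_le_pow_right (by norm_num) (by omega)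

/-- centre of order two -/
theorem case_two (h2 : Nat.card π.ker = 2) (hA : Off 3 ρ A) : A ≤ K ∧ ∃ B, Off 3 ρ B ∧ Cub ρ B := by
  have := H.normal
  have hne : π.ker ≠ ⊥ := fun e => by rw [e, card_bot] at h2; omega
  obtain ⟨ψ⟩ := exists_iso (cov H) hne (isCyclic_of_prime_card (p := 2) h2)
  have h1 : A ≤ K := fun a ha => by
    obtain ⟨x, hx⟩ := inner_K0 (α := MulAut.congr ψ (MulAut.conjNormal a))
      (by rw [← map_pow, ← map_pow, hA.1.2 a ha, map_one, map_one])
    have h3 : (ψ.symm x : Y)⁻¹ * a ∈ centralizer (K : Set Y) := fun y hy => by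
      have h4 := congrArg (fun k => (ψ.symm k : Y)) (hx (ψ ⟨y, hy⟩))
      simp only [MulAut.congr_apply, MulEquiv.trans_apply, MulEquiv.symm_apply_apply, map_mul, map_inv,
        MulAut.conjNormal_apply, Subgroup.coe_mul, InvMemClass.coe_inv] at h4
      calc y * ((ψ.symm x : Y)⁻¹ * a) = (ψ.symm x : Y)⁻¹ * ((ψ.symm x : Y) * y * (ψ.symm x : Y)⁻¹) * a := by group
        _ = _ := by rw [← h4]; group
    simpa only [mul_inv_cancel_left] using mul_mem (ψ.symm x).2 (H.toStp.cent h3)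
  have := H.toStp.nontrivial
  obtain ⟨-, h3⟩ := minus_K (σ := ((ρ.comp K.subtype).comp ψ.symm.toMonoidHom : Representation (ZMod 3) K₀ V))
    (fun v => neg_of (m := 1) (by rw [one_mul, mul_one]) negK_mul_self (fun w _ hw => fx_center H hne fun z hz => by
      rcases central_K0 (z := ψ z) (fun k => by
        obtain ⟨k, rfl⟩ := ψ.surjective k
        rw [← map_mul, ← map_mul, mem_center_iff.1 (H.ker_π.le hz) k]) with e | e
      · rw [(MulEquiv.map_eq_one_iff ψ).1 e]
        exact rho_one ρ w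
      · rw [← ψ.symm_apply_apply z, e]
        exact hw) (rho_one _ v)) finrank_pos
  have h4 := card_sub (K := K) (A := A)
  rw [relIndex_eq_one.2 h1, mul_one] at h4
  have h5 := (h3 ((A.subgroupOf K).map ψ.toMonoidHom) (elemAb_map (elemAb_sub hA.1) _) fun e' => hA.2.1 (card_eq_one.1 (by
    rw [← h4, (map_eq_bot_iff_of_injective _ ψ.injective).1 e', card_bot]))).2 (by
    rw [card_map_of_injective ψ.injective, cod_comp, map_map, MulEquiv.toMonoidHom_eq_coe, MulEquiv.toMonoidHom_eq_coe,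
      MulEquiv.coe_monoidHom_symm_comp_coe_monoidHom, Subgroup.map_id, h4]
    exact (Nat.pow_le_pow_right (by norm_num) cod_sub).trans hA.2.2)
  rw [cod_comp, cod_comp, MonoidHom.map_zpowers, MonoidHom.map_zpowers] at h5
  have h6 : (K.subtype (ψ.symm.toMonoidHom T0.a)) ^ 3 = 1 := by rw [← map_pow, ← map_pow, T0.a3, map_one, map_one]
  exact ⟨h1, _, off_zpowers (orderOf_eq_prime h6 fun e => a_ne (ψ.symm.injective (Subtype.ext
    (e.trans (by rw [map_one]; rfl))))) h5, cub_of_cod_le_two (elemAb_isPGroup (elemAb_zpowers h6)) h5⟩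

/-- centre of order four -/
theorem case_four (h4 : Nat.card π.ker = 4) : ¬ Off 3 ρ A := fun hA => by
  have := H.normal
  have hne : π.ker ≠ ⊥ := fun e => by rw [e, card_bot] at h4; omega
  obtain ⟨D, _, _, S, hS⟩ := exists_dat (cov H)
  have hp : Function.Bijective S.p := S.psurj.bijective_of_nat_card_le (by
    rw [H.toFrm.card_K, ← H.ker_π, h4]
    exact S.card_le)
  let e := MulEquiv.ofBijective S.p hp
  obtain ⟨h1, h2⟩ := four (σ := ((ρ.comp K.subtype).comp S.p : Representation (ZMod 3) D V)) S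
    ((H.faithful.comp K.subtype_injective).comp hp.1) fun v e1 e2 => fx_center H hne fun z hz => by
      obtain ⟨m, rfl⟩ := S.psurj z
      rcases S.mem_ker (m := m) (by rw [← hS] at hz; exact hz) with rfl | rfl | rfl | rfl
      · rw [map_one]; exact rho_one ρ v
      · exact e1
      · exact e2
      · exact (rho_mul ((ρ.comp K.subtype).comp S.p) _ _ v).trans (by rw [e2, e1])
  have h3 := card_sub (K := K) (A := A)
  have hE := elemAb_map (elemAb_sub (K := K) hA.1) e.symm.toMonoidHom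
  have hc : Nat.card ((A.subgroupOf K).map e.symm.toMonoidHom) = Nat.card (A.subgroupOf K) :=
    card_map_of_injective e.symm.injective
  by_cases h0 : A ≤ K
  · rw [relIndex_eq_one.2 h0, mul_one] at h3
    refine h2 _ ⟨hE, fun e' => hA.2.1 (card_eq_one.1 (by rw [← h3, ← hc, e', card_bot])), ?_⟩
    rw [hc, h3, cod_comp, map_map, show S.p.comp e.symm.toMonoidHom = MonoidHom.id K from
      MonoidHom.ext e.apply_symm_apply, Subgroup.map_id]
    exact (Nat.pow_le_pow_right (by norm_num) cod_sub).trans hA.2.2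
  obtain ⟨a, ha, ha'⟩ := SetLike.not_le_iff_exists.1 h0
  by_cases h5 : ∀ z ∈ π.ker, MulAut.conjNormal a z = z
  · obtain ⟨x, hx⟩ := InnerCore.inner_bar RowFinal.autConj (cov H) h4 _ h5
    refine ha' (H.toFrm.mem_inn_iff.1 ⟨x, MulEquiv.ext fun s => ?_⟩)
    obtain ⟨y, rfl⟩ := H.surj s
    rw [H.conj a y (MulAut.conjNormal a y) rfl, hx, MulAut.conj_apply]
  push Not at h5
  obtain ⟨z, hz, h5⟩ := h5
  have sq : ∀ z ∈ centralizer (K : Set Y), z * z = 1 := fun z hz =>
    congrArg Subtype.val (ker_sq (cov H) (z := ⟨z, H.toStp.cent hz⟩) (H.toFrm.π_eq_one_iff.2 hz))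
  have hn : ∀ x ∈ centralizer (K : Set Y), a * x * a⁻¹ ∈ centralizer (K : Set Y) := fun x hx =>
    (inferInstance : (centralizer (K : Set Y)).Normal).conj_mem x hx a
  have h6 := XL.cod_comm_le (ρ := ρ) (R := centralizer (K : Set Y)) (B := centralizer (K : Set Y)) (a := a) (s := 3)
    (n := 1) (fun x hx y hy => hy x (H.toStp.cent hx))
    (card_ne_zero_of_exp Nat.prime_two (by decide) fun x hx => by rw [pow_two, sq x hx]) (hA.1.2 a ha) hn
    fun L hL => klein (by rw [H.toStp.card_centralizer, ← H.ker_π, h4]) sq (hA.1.2 a ha) hn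
      (H.toFrm.π_eq_one_iff.1 hz) (fun e' => h5 (Subtype.ext e')) hL
  rw [cod_of_fx_eq_bot (B := centralizer (K : Set Y)) (eq_bot_iff.2 fun v hv =>
    fx_center H hne fun z hz => hv z (H.toFrm.π_eq_one_iff.1 hz))] at h6
  obtain ⟨r, -, h7, h8⟩ := hA.exists_card
  have h9 := cod_mono (ρ := ρ) (zpowers_le.2 ha)
  have h10 := card_le_D S hE
  have h11 : r ≤ 5 := (Nat.pow_le_pow_iff_right (by norm_num : 1 < 3)).1 (by
    rw [← h7, ← h3, ← hc]
    exact Nat.mul_le_mul h10 (rel_le H hA.1))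
  omega

theorem main (hA : Off 3 ρ A) : A ≤ K ∧ ∃ B, Off 3 ρ B ∧ Cub ρ B := by
  have h := card_ker_dvd H
  have h1 := Nat.le_of_dvd (by norm_num) h
  have h2 : 0 < Nat.card π.ker := Nat.card_pos
  have h3 : Nat.card π.ker ≠ 3 := fun e => by rw [e] at h; exact absurd h (by norm_num)
  rcases (by omega : Nat.card π.ker = 1 ∨ Nat.card π.ker = 2 ∨ Nat.card π.ker = 4) with e | e | e
  · exact absurd hA (case_one H (card_eq_one.1 e))
  · exact case_two H e hA
  · exact absurd hA (case_four H e)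

omit H in
theorem row : Row 3 S8 :=
  ⟨row88_of_sit fun _ _ _ _ _ _ _ _ _ _ _ H _ hA => (main H hA).2,
    row89_of_sit fun _ _ _ _ _ _ _ _ _ _ _ H _ hA _ _ _ h => absurd (main H hA).1 h⟩

end Cfsg.Agent.TwoF.XS.O8p

namespace Cfsg.Agent.TwoF.XS

/-- **`Ω₈⁺(2)`, `p = 3`** -/
theorem o8p : O8p := fun F _ _ hF => by
  obtain ⟨e⟩ := H63.EightTwo.exists_equiv
  obtain ⟨e'⟩ := UGT.U2.Rec.Congr.nonempty_POmega (ZMod.ringEquivOfPrime F Nat.prime_two hF).symm
    (Q := quadFormPlus 4 F) (Q' := quadFormPlus 4 (ZMod 2)) fun v => by simp [quadFormPlus, map_sum, map_mul]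
  exact O8p.row.of_equiv (e'.trans e)

end Cfsg.Agent.TwoF.XS
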