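import Cfsg.Agent.TwoF.XE.Lo

/-!
# TwoF / XS / O8p: a group with Sylow 3-subgroup `(3 ≀ 3) × 3` (helper36)

`E = ⟨a, b, c, d⟩ ≅ 3⁴`; every elementary abelian 3-subgroup is conjugate into `E`, the normaliser of `E` is
irreducible on `E`; Chermak-Delgado inside `E`.
-/

set_option autoImplicit false

namespace Cfsg.Agent.TwoF.XS.O8p

open Module Gen Subgroup

/-- the data -/
structure Str (G : Type*) [Group G] where
  (a b c d s p q t g : G)
  a3 : a ^ 3 = 1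
  b3 : b ^ 3 = 1
  c3 : c ^ 3 = 1
  d3 : d ^ 3 = 1
  s3 : s ^ 3 = 1
  ab : a * b = b * a
  ac : a * c = c * a
  ad : a * d = d * a
  bc : b * c = c * b
  bd : b * d = d * b
  cd : c * d = d * c
  sa : s * a * s⁻¹ = b
  sb : s * b * s⁻¹ = c
  sc : s * c * s⁻¹ = a
  sd : s * d * s⁻¹ = d
  pa : p * a * p⁻¹ = a⁻¹
  pb : p * b * p⁻¹ = b⁻¹
  pc : p * c * p⁻¹ = c
  pd : p * d * p⁻¹ = d
  qa : q * a * q⁻¹ = a⁻¹
  qb : q * b * q⁻¹ = b
  qc : q * c * q⁻¹ = c⁻¹
  qd : q * d * q⁻¹ = d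
  ta : t * a * t⁻¹ = a
  tb : t * b * t⁻¹ = b
  tc : t * c * t⁻¹ = d
  td : t * d * t⁻¹ = c
  gz : g * (a * b * c) * g⁻¹ = a * b * c
  gd : g * d * g⁻¹ = d
  gs : g * s * g⁻¹ = a * b⁻¹

variable {G : Type*} [Group G]

theorem zpow_congr {x : G} (hx : x ^ 3 = 1) {i j : ℤ} (h : 3 ∣ i - j) : x ^ i = x ^ j := by
  obtain ⟨n, hn⟩ := h
  have h3 : x ^ (3 : ℤ) = 1 := by rw [← hx]; exact zpow_natCast x 3
  rw [show i = j + 3 * n by omega, zpow_add, zpow_mul, h3, one_zpow, mul_one]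

theorem dvd_of_zpow {x : G} (hx : x ^ 3 = 1) (h1 : x ≠ 1) {i : ℤ} (h : x ^ i = 1) : 3 ∣ i := by
  have h2 := orderOf_dvd_iff_zpow_eq_one.2 h
  rwa [orderOf_eq_prime hx h1] at h2

theorem mem_of_zpow {x : G} (hx : x ^ 3 = 1) {N : Subgroup G} {i : ℤ} (h : x ^ i ∈ N) (h1 : x ^ i ≠ 1) : x ∈ N := by
  have h0 : ¬ 3 ∣ i - 0 := fun e => h1 (by rw [zpow_congr hx e, zpow_zero])
  by_cases h2 : 3 ∣ i - 1
  · rwa [zpow_congr hx h2, zpow_one] at h
  · rwa [zpow_congr hx (show 3 ∣ i - -1 by omega), zpow_neg_one, inv_mem_iff] at h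

namespace Str

/-- the image of the data -/
def map {H : Type*} [Group H] (T : Str G) (f : G →* H) : Str H where
  a := f T.a
  b := f T.b
  c := f T.c
  d := f T.d
  s := f T.s
  p := f T.p
  q := f T.q
  t := f T.t
  g := f T.g
  a3 := by rw [← map_pow, T.a3, map_one]
  b3 := by rw [← map_pow, T.b3, map_one]
  c3 := by rw [← map_pow, T.c3, map_one]
  d3 := by rw [← map_pow, T.d3, map_one]
  s3 := by rw [← map_pow, T.s3, map_one]
  ab := by simpa only [map_mul] using congrArg f T.ab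
  ac := by simpa only [map_mul] using congrArg f T.ac
  ad := by simpa only [map_mul] using congrArg f T.ad
  bc := by simpa only [map_mul] using congrArg f T.bc
  bd := by simpa only [map_mul] using congrArg f T.bd
  cd := by simpa only [map_mul] using congrArg f T.cd
  sa := by simpa only [map_mul, map_inv] using congrArg f T.sa
  sb := by simpa only [map_mul, map_inv] using congrArg f T.sb
  sc := by simpa only [map_mul, map_inv] using congrArg f T.sc
  sd := by simpa only [map_mul, map_inv] using congrArg f T.sd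
  pa := by simpa only [map_mul, map_inv] using congrArg f T.pa
  pb := by simpa only [map_mul, map_inv] using congrArg f T.pb
  pc := by simpa only [map_mul, map_inv] using congrArg f T.pc
  pd := by simpa only [map_mul, map_inv] using congrArg f T.pd
  qa := by simpa only [map_mul, map_inv] using congrArg f T.qa
  qb := by simpa only [map_mul, map_inv] using congrArg f T.qb
  qc := by simpa only [map_mul, map_inv] using congrArg f T.qc
  qd := by simpa only [map_mul, map_inv] using congrArg f T.qd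
  ta := by simpa only [map_mul, map_inv] using congrArg f T.ta
  tb := by simpa only [map_mul, map_inv] using congrArg f T.tb
  tc := by simpa only [map_mul, map_inv] using congrArg f T.tc
  td := by simpa only [map_mul, map_inv] using congrArg f T.td
  gz := by simpa only [map_mul, map_inv] using congrArg f T.gz
  gd := by simpa only [map_mul, map_inv] using congrArg f T.gd
  gs := by simpa only [map_mul, map_inv] using congrArg f T.gs

variable (T : Str G)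

/-- the elements of `E` -/
def el (i j k l : ℤ) : G := T.a ^ i * (T.b ^ j * (T.c ^ k * T.d ^ l))

theorem el_mul (i j k l i' j' k' l' : ℤ) :
    T.el i j k l * T.el i' j' k' l' = T.el (i + i') (j + j') (k + k') (l + l') := by
  have ab : Commute T.a T.b := T.ab
  have ac : Commute T.a T.c := T.ac
  have ad : Commute T.a T.d := T.ad
  have bc : Commute T.b T.c := T.bc
  have bd : Commute T.b T.d := T.bd
  have cd : Commute T.c T.d := T.cd
  unfold el
  rw [(((ab.zpow_zpow i' j).mul_right ((ac.zpow_zpow i' k).mul_right (ad.zpow_zpow i' l))).symm).mul_mul_mul_comm,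
    (((bc.zpow_zpow j' k).mul_right (bd.zpow_zpow j' l)).symm).mul_mul_mul_comm,
    ((cd.zpow_zpow k' l).symm).mul_mul_mul_comm, ← zpow_add, ← zpow_add, ← zpow_add, ← zpow_add]

theorem el_zero : T.el 0 0 0 0 = 1 := by simp [el]

theorem el_inv (i j k l : ℤ) : (T.el i j k l)⁻¹ = T.el (-i) (-j) (-k) (-l) :=
  inv_eq_of_mul_eq_one_right (by rw [el_mul]; simp [el_zero])

theorem el_congr {i j k l i' j' k' l' : ℤ} (h1 : 3 ∣ i - i') (h2 : 3 ∣ j - j') (h3 : 3 ∣ k - k') (h4 : 3 ∣ l - l') :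
    T.el i j k l = T.el i' j' k' l' := by
  unfold el
  rw [zpow_congr T.a3 h1, zpow_congr T.b3 h2, zpow_congr T.c3 h3, zpow_congr T.d3 h4]

theorem el_a (i : ℤ) : T.a ^ i = T.el i 0 0 0 := by simp [el]
theorem el_b (i : ℤ) : T.b ^ i = T.el 0 i 0 0 := by simp [el]
theorem el_c (i : ℤ) : T.c ^ i = T.el 0 0 i 0 := by simp [el]
theorem el_d (i : ℤ) : T.d ^ i = T.el 0 0 0 i := by simp [el]

theorem conj_el (x : G) (i j k l : ℤ) : x * T.el i j k l * x⁻¹ =
    (x * T.a * x⁻¹) ^ i * ((x * T.b * x⁻¹) ^ j * ((x * T.c * x⁻¹) ^ k * (x * T.d * x⁻¹) ^ l)) := by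
  simp only [conj_zpow]
  simp only [el, mul_assoc, inv_mul_cancel_left]

theorem s_el (i j k l : ℤ) : T.s * T.el i j k l * T.s⁻¹ = T.el k i j l := by
  rw [conj_el, T.sa, T.sb, T.sc, T.sd, el_a, el_b, el_c, el_d]
  simp only [el_mul, add_zero, zero_add]

theorem p_el (i j k l : ℤ) : T.p * T.el i j k l * T.p⁻¹ = T.el (-i) (-j) k l := by
  rw [conj_el, T.pa, T.pb, T.pc, T.pd, inv_zpow', inv_zpow']; rfl

theorem q_el (i j k l : ℤ) : T.q * T.el i j k l * T.q⁻¹ = T.el (-i) j (-k) l := by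
  rw [conj_el, T.qa, T.qb, T.qc, T.qd, inv_zpow', inv_zpow']; rfl

theorem t_el (i j k l : ℤ) : T.t * T.el i j k l * T.t⁻¹ = T.el i j l k := by
  rw [conj_el, T.ta, T.tb, T.tc, T.td, el_a, el_b, el_c, el_d]
  simp only [el_mul, add_zero, zero_add]

/-- the subgroup `E` -/
def E : Subgroup G where
  carrier := {x | ∃ i j k l, x = T.el i j k l}
  one_mem' := ⟨0, 0, 0, 0, T.el_zero.symm⟩
  mul_mem' := by
    rintro _ _ ⟨i, j, k, l, rfl⟩ ⟨i', j', k', l', rfl⟩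
    exact ⟨_, _, _, _, T.el_mul ..⟩
  inv_mem' := by
    rintro _ ⟨i, j, k, l, rfl⟩
    exact ⟨_, _, _, _, T.el_inv ..⟩

theorem el_mem (i j k l : ℤ) : T.el i j k l ∈ T.E := ⟨i, j, k, l, rfl⟩

theorem a_mem : T.a ∈ T.E := by simpa only [← el_a, zpow_one] using T.el_mem 1 0 0 0
theorem b_mem : T.b ∈ T.E := by simpa only [← el_b, zpow_one] using T.el_mem 0 1 0 0
theorem c_mem : T.c ∈ T.E := by simpa only [← el_c, zpow_one] using T.el_mem 0 0 1 0
theorem d_mem : T.d ∈ T.E := by simpa only [← el_d, zpow_one] using T.el_mem 0 0 0 1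

theorem comm {x y : G} (hx : x ∈ T.E) (hy : y ∈ T.E) : x * y = y * x := by
  obtain ⟨i, j, k, l, rfl⟩ := hx
  obtain ⟨i', j', k', l', rfl⟩ := hy
  rw [el_mul, el_mul, add_comm i, add_comm j, add_comm k, add_comm l]

theorem cube {x : G} (hx : x ∈ T.E) : x ^ 3 = 1 := by
  obtain ⟨i, j, k, l, rfl⟩ := hx
  rw [pow_three, el_mul, el_mul, ← T.el_zero]
  exact T.el_congr (by omega) (by omega) (by omega) (by omega)

theorem elemAb : IsElementaryAbelian 3 T.E := elemAb_of (fun _ hx _ hy => T.comm hx hy) fun _ hx => T.cube hx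

theorem split {N : Subgroup G} (hp : ∀ u ∈ N, T.p * u * T.p⁻¹ ∈ N) (hq : ∀ u ∈ N, T.q * u * T.q⁻¹ ∈ N) {i j k l : ℤ}
    (h : T.el i j k l ∈ N) : T.a ^ i ∈ N ∧ T.b ^ j ∈ N ∧ T.c ^ k ∈ N ∧ T.d ^ l ∈ N := by
  have h1 := hp _ h
  have h2 := hq _ h
  rw [p_el] at h1
  rw [q_el] at h2
  have h3 := hq _ h1
  rw [q_el] at h3
  have e1 := mul_mem (mul_mem h (inv_mem h1)) (mul_mem (inv_mem h2) h3)
  have e2 := mul_mem (mul_mem h (inv_mem h1)) (mul_mem h2 (inv_mem h3))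
  have e3 := mul_mem (mul_mem h h1) (mul_mem (inv_mem h2) (inv_mem h3))
  have e4 := mul_mem (mul_mem h h1) (mul_mem h2 h3)
  simp only [el_inv, el_mul] at e1 e2 e3 e4
  rw [el_a, el_b, el_c, el_d]
  refine ⟨?_, ?_, ?_, ?_⟩
  · rwa [T.el_congr (i' := i) (j' := 0) (k' := 0) (l' := 0) (by omega) (by omega) (by omega) (by omega)] at e1
  · rwa [T.el_congr (i' := 0) (j' := j) (k' := 0) (l' := 0) (by omega) (by omega) (by omega) (by omega)] at e2
  · rwa [T.el_congr (i' := 0) (j' := 0) (k' := k) (l' := 0) (by omega) (by omega) (by omega) (by omega)] at e3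
  · rwa [T.el_congr (i' := 0) (j' := 0) (k' := 0) (l' := l) (by omega) (by omega) (by omega) (by omega)] at e4

/-- irreducibility -/
theorem irr {N : Subgroup G} (hp : ∀ u ∈ N, T.p * u * T.p⁻¹ ∈ N) (hq : ∀ u ∈ N, T.q * u * T.q⁻¹ ∈ N)
    (hs : ∀ u ∈ N, T.s * u * T.s⁻¹ ∈ N) (ht : ∀ u ∈ N, T.t * u * T.t⁻¹ ∈ N) {u : G} (hu : u ∈ N) (hE : u ∈ T.E)
    (h1 : u ≠ 1) : T.E ≤ N := by
  obtain ⟨i, j, k, l, rfl⟩ := hE
  obtain ⟨e1, e2, e3, e4⟩ := T.split hp hq hu
  have f1 : T.a ∈ N → T.b ∈ N := fun h => T.sa ▸ hs _ h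
  have f2 : T.b ∈ N → T.c ∈ N := fun h => T.sb ▸ hs _ h
  have f3 : T.c ∈ N → T.a ∈ N := fun h => T.sc ▸ hs _ h
  have f4 : T.c ∈ N → T.d ∈ N := fun h => T.tc ▸ ht _ h
  have f5 : T.d ∈ N → T.c ∈ N := fun h => T.td ▸ ht _ h
  have hc : T.c ∈ N := by
    by_contra hc
    apply h1
    have g1 : T.a ^ i = 1 := by_contra fun h => hc (f2 (f1 (mem_of_zpow T.a3 e1 h)))
    have g2 : T.b ^ j = 1 := by_contra fun h => hc (f2 (mem_of_zpow T.b3 e2 h))
    have g3 : T.c ^ k = 1 := by_contra fun h => hc (mem_of_zpow T.c3 e3 h)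
    have g4 : T.d ^ l = 1 := by_contra fun h => hc (f5 (mem_of_zpow T.d3 e4 h))
    rw [el, g1, g2, g3, g4, one_mul, one_mul, one_mul]
  rintro _ ⟨i, j, k, l, rfl⟩
  exact mul_mem (zpow_mem (f3 hc) _) (mul_mem (zpow_mem (f1 (f3 hc)) _) (mul_mem (zpow_mem hc _) (zpow_mem (f4 hc) _)))

variable {T} (ha : T.a ≠ 1)
include ha

theorem el_eq_one {i j k l : ℤ} (h : T.el i j k l = 1) : 3 ∣ i ∧ 3 ∣ j ∧ 3 ∣ k ∧ 3 ∣ l := by
  have hb : T.b ≠ 1 := fun e => ha (by simpa [e] using T.sa)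
  have hc : T.c ≠ 1 := fun e => hb (by simpa [e] using T.sb)
  have hd : T.d ≠ 1 := fun e => hc (by simpa [e] using T.tc)
  obtain ⟨e1, e2, e3, e4⟩ := T.split (N := ⊥) (fun u hu => by rw [mem_bot.1 hu]; simp)
    (fun u hu => by rw [mem_bot.1 hu]; simp) (mem_bot.2 h)
  exact ⟨dvd_of_zpow T.a3 ha e1, dvd_of_zpow T.b3 hb e2, dvd_of_zpow T.c3 hc e3, dvd_of_zpow T.d3 hd e4⟩

theorem el_inj {i j k l i' j' k' l' : ℤ} (h : T.el i j k l = T.el i' j' k' l') :
    3 ∣ i - i' ∧ 3 ∣ j - j' ∧ 3 ∣ k - k' ∧ 3 ∣ l - l' := by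
  rw [← mul_inv_eq_one, el_inv, el_mul] at h
  exact el_eq_one ha h

theorem card_E : Nat.card T.E = 81 := by
  have h : Function.Bijective fun v : Fin 3 × Fin 3 × Fin 3 × Fin 3 =>
      (⟨T.el (v.1 : ℕ) (v.2.1 : ℕ) (v.2.2.1 : ℕ) (v.2.2.2 : ℕ), T.el_mem ..⟩ : T.E) := by
    constructor
    · rintro ⟨i, j, k, l⟩ ⟨i', j', k', l'⟩ e
      obtain ⟨h1, h2, h3, h4⟩ := el_inj ha (congrArg Subtype.val e)
      dsimp only at h1 h2 h3 h4
      refine Prod.ext (Fin.ext ?_) (Prod.ext (Fin.ext ?_) (Prod.ext (Fin.ext ?_) (Fin.ext ?_))) <;> dsimp only <;> omega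
    · rintro ⟨_, i, j, k, l, rfl⟩
      refine ⟨(⟨(i % 3).toNat, by omega⟩, ⟨(j % 3).toNat, by omega⟩, ⟨(k % 3).toNat, by omega⟩,
        ⟨(l % 3).toNat, by omega⟩), Subtype.ext (T.el_congr ?_ ?_ ?_ ?_)⟩ <;> dsimp only <;> omega
  rw [← Nat.card_eq_of_bijective _ h]
  simp

omit ha in
theorem norm_of [Finite G] {x : G} (h : ∀ i j k l, x * T.el i j k l * x⁻¹ ∈ T.E) : x ∈ normalizer (T.E : Set G) :=
  mem_normalizer_fintype (by
    rintro _ ⟨i, j, k, l, rfl⟩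
    exact h i j k l)

omit ha in
theorem s_norm [Finite G] : T.s ∈ normalizer (T.E : Set G) := norm_of fun _ _ _ _ => by rw [s_el]; exact T.el_mem ..

theorem not_dvd_index [Finite G] (hG : ¬ 3 ^ 6 ∣ Nat.card G) :
    IsPGroup 3 ↥(T.E ⊔ zpowers T.s) ∧ ¬ 3 ∣ (T.E ⊔ zpowers T.s).index := by
  have hP : IsPGroup 3 ↥(T.E ⊔ zpowers T.s) :=
    (elemAb_isPGroup T.elemAb).to_sup_of_normal_left' (elemAb_isPGroup (elemAb_zpowers T.s3)) (zpowers_le.2 s_norm)
  refine ⟨hP, fun h => hG ?_⟩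
  obtain ⟨n, hn⟩ := hP.exists_card_eq
  have h1 : T.s ∉ T.E := fun e => by
    have h2 := T.s_el 1 0 0 0
    rw [T.comm e (T.el_mem ..), mul_inv_cancel_right] at h2
    have := (el_inj ha h2).1
    omega
  have h2 : T.E < T.E ⊔ zpowers T.s :=
    lt_of_le_of_ne le_sup_left fun e => h1 (e ▸ mem_sup_right (mem_zpowers _))
  have h3 : Nat.card T.E < Nat.card ↥(T.E ⊔ zpowers T.s) :=
    lt_of_le_of_ne (card_le_of_le h2.le) fun e => h2.ne (eq_of_le_of_card_ge h2.le e.ge)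
  rw [card_E ha, hn, show 81 = 3 ^ 4 from rfl, Nat.pow_lt_pow_iff_right (by norm_num)] at h3
  rw [← card_mul_index (T.E ⊔ zpowers T.s), hn, show 3 ^ 6 = 3 ^ 5 * 3 from rfl]
  exact mul_dvd_mul (pow_dvd_pow 3 h3) h

/-- every elementary abelian 3-subgroup is conjugate into `E` -/
theorem exists_conj [Finite G] (hG : ¬ 3 ^ 6 ∣ Nat.card G) {A : Subgroup G} (hA : IsElementaryAbelian 3 A) :
    ∃ x, A.map (MulAut.conj x).toMonoidHom ≤ T.E := by
  obtain ⟨hP, hi⟩ := not_dvd_index ha hG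
  obtain ⟨x, hx⟩ := XE.exists_conj_le hP hi (elemAb_isPGroup hA)
  suffices h : ∀ B : Subgroup G, IsElementaryAbelian 3 B → B ≤ T.E ⊔ zpowers T.s →
      ∃ y, B.map (MulAut.conj y).toMonoidHom ≤ T.E by
    obtain ⟨y, hy⟩ := h _ (elemAb_map hA _) hx
    refine ⟨y * x, ?_⟩
    rwa [map_map, show (MulAut.conj y).toMonoidHom.comp (MulAut.conj x).toMonoidHom =
      (MulAut.conj (y * x)).toMonoidHom by rw [map_mul]; rfl] at hy
  intro B hB hle
  have dec : ∀ v ∈ B, v ∈ T.E ∨ (∃ e ∈ T.E, v = e * T.s) ∨ ∃ e ∈ T.E, v⁻¹ = e * T.s := fun v hv => by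
    have h1 : v ∈ ((T.E ⊔ zpowers T.s : Subgroup G) : Set G) := hle hv
    rw [coe_mul_of_right_le_normalizer_left _ _ (zpowers_le.2 s_norm)] at h1
    obtain ⟨e, he, _, ⟨m, rfl⟩, rfl⟩ := h1
    dsimp only
    by_cases h2 : 3 ∣ m - 1
    · exact Or.inr (Or.inl ⟨e, he, by rw [zpow_congr T.s3 h2, zpow_one]⟩)
    · by_cases h3 : 3 ∣ m - 0
      · exact Or.inl (by rwa [zpow_congr T.s3 h3, zpow_zero, mul_one])
      · refine Or.inr (Or.inr ⟨_, (mem_normalizer_iff.1 s_norm _).1 (inv_mem he), ?_⟩)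
        rw [zpow_congr T.s3 (show 3 ∣ m - -1 by omega)]
        group
  by_cases h0 : B ≤ T.E
  · exact ⟨1, by rwa [map_one, show (1 : MulAut G).toMonoidHom = MonoidHom.id G from rfl, Subgroup.map_id]⟩
  obtain ⟨u, hu, e, he, rfl⟩ : ∃ u ∈ B, ∃ e ∈ T.E, u = e * T.s := by
    obtain ⟨u, hu, hu'⟩ := SetLike.not_le_iff_exists.1 h0
    rcases dec u hu with h | h | h
    · exact absurd h hu'
    · exact ⟨u, hu, h⟩
    · exact ⟨_, inv_mem hu, h⟩
  obtain ⟨i, j, k, l, rfl⟩ := he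
  have h3 : 3 ∣ i + j + k := by
    have h4 := hB.2 _ hu
    have h5 : (T.el i j k l * T.s) ^ 3 = T.el i j k l * (T.s * T.el i j k l * T.s⁻¹) *
        (T.s * (T.s * T.el i j k l * T.s⁻¹) * T.s⁻¹) * T.s ^ 3 := by
      simp only [pow_three, mul_assoc, inv_mul_cancel_left]
    rw [h5, T.s3, mul_one, s_el, s_el, el_mul, el_mul] at h4
    have := (el_eq_one ha h4).1
    omega
  refine ⟨T.g * T.el (-i) k 0 0, map_le_iff_le_comap.2 ?_⟩
  set C := T.E.comap (MulAut.conj (T.g * T.el (-i) k 0 0)).toMonoidHom with hC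
  have memC : ∀ v, v ∈ C ↔ T.g * (T.el (-i) k 0 0 * v * (T.el (-i) k 0 0)⁻¹) * T.g⁻¹ ∈ T.E := fun v => by
    rw [hC, mem_comap]
    show T.g * T.el (-i) k 0 0 * v * (T.g * T.el (-i) k 0 0)⁻¹ ∈ T.E ↔ _
    simp only [mul_inv_rev, mul_assoc]
  have hz : T.a * T.b * T.c ∈ C := by
    rw [memC, T.comm (T.el_mem ..) (mul_mem (mul_mem T.a_mem T.b_mem) T.c_mem), mul_inv_cancel_right, T.gz]
    exact mul_mem (mul_mem T.a_mem T.b_mem) T.c_mem
  have hd : T.d ∈ C := by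
    rw [memC, T.comm (T.el_mem ..) T.d_mem, mul_inv_cancel_right, T.gd]
    exact T.d_mem
  have hu' : T.el i j k l * T.s ∈ C := by
    have h4 : T.el (-i) k 0 0 * (T.el i j k l * T.s) * (T.el (-i) k 0 0)⁻¹ = T.d ^ l * T.s := by
      have h5 : T.el (-i) k 0 0 * (T.el i j k l * T.s) * (T.el (-i) k 0 0)⁻¹ =
          T.el (-i) k 0 0 * T.el i j k l * (T.s * (T.el (-i) k 0 0)⁻¹ * T.s⁻¹) * T.s := by
        simp only [mul_assoc, inv_mul_cancel, mul_one]
      rw [h5, el_inv, s_el, el_mul, el_mul, el_d]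
      congr 1
      exact T.el_congr (by omega) (by omega) (by omega) (by omega)
    have h5 : T.g * (T.d ^ l * T.s) * T.g⁻¹ = (T.g * T.d * T.g⁻¹) ^ l * (T.g * T.s * T.g⁻¹) := by
      simp only [conj_zpow]
      simp only [mul_assoc, inv_mul_cancel_left]
    rw [memC, h4, h5, T.gd, T.gs]
    exact mul_mem (zpow_mem T.d_mem _) (mul_mem T.a_mem (inv_mem T.b_mem))
  have fixC : ∀ w ∈ B, w ∈ T.E → w ∈ C := by
    rintro _ hw ⟨i', j', k', l', rfl⟩
    have h4 := elemAb_comm hB hw hu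
    rw [← mul_assoc, T.comm (T.el_mem ..) (T.el_mem i j k l), mul_assoc, mul_assoc, mul_left_cancel_iff] at h4
    have h5 := T.s_el i' j' k' l'
    rw [← h4, mul_inv_cancel_right] at h5
    obtain ⟨h6, h7, h8, -⟩ := el_inj ha h5
    have h9 : T.el i' j' k' l' = (T.a * T.b * T.c) ^ i' * T.d ^ l' := by
      rw [((show Commute T.a T.c from T.ac).mul_left (show Commute T.b T.c from T.bc)).mul_zpow,
        (show Commute T.a T.b from T.ab).mul_zpow, el_a, el_b, el_c, el_d, el_mul, el_mul, el_mul]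
      exact T.el_congr (by omega) (by omega) (by omega) (by omega)
    rw [h9]
    exact mul_mem (zpow_mem hz _) (zpow_mem hd _)
  have one : ∀ v ∈ B, (∃ e ∈ T.E, v = e * T.s) → v ∈ C := by
    rintro _ hv ⟨e, he, rfl⟩
    have h4 := fixC _ (mul_mem hv (inv_mem hu)) (by
      rw [mul_inv_rev, mul_assoc, mul_inv_cancel_left]
      exact mul_mem he (inv_mem (T.el_mem ..)))
    simpa only [inv_mul_cancel_right] using mul_mem h4 hu'
  intro v hv
  rcases dec v hv with h | h | h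
  · exact fixC v hv h
  · exact one v hv h
  · exact inv_mem_iff.1 (one _ (inv_mem hv) h)

theorem card_le [Finite G] (hG : ¬ 3 ^ 6 ∣ Nat.card G) {A : Subgroup G} (hA : IsElementaryAbelian 3 A) :
    Nat.card A ≤ 81 := by
  obtain ⟨x, hx⟩ := exists_conj ha hG hA
  rw [← card_map_conj x, ← card_E ha]
  exact card_le_of_le hx

variable {k : Type*} [Field k] {V : Type*} [AddCommGroup V] [Module k V] [FiniteDimensional k V]

/-- **Chermak-Delgado inside `E`** -/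
theorem core [Finite G] (hG : ¬ 3 ^ 6 ∣ Nat.card G) (σ : Representation k G V) {A : Subgroup G}
    (hA : IsElementaryAbelian 3 A) (h1 : A ≠ ⊥) {n : ℕ} (h : 3 ^ cod σ A ≤ Nat.card A ^ n) : cod σ T.E ≤ 4 * n := by
  obtain ⟨x, hx⟩ := exists_conj ha hG hA
  obtain ⟨N, h2, h3, h4, h5, -⟩ := Gen.cd (ρ := σ) (q := 3) (by norm_num) n 1 hx
    (fun e => h1 ((map_eq_bot_iff_of_injective _ (MulAut.conj x).injective).1 e))
    (by rwa [one_mul, cod_conj, card_map_conj])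
  have key : ∀ y, (∀ i j k l, y * T.el i j k l * y⁻¹ ∈ T.E) → ∀ u ∈ N, y * u * y⁻¹ ∈ N := fun y hy u hu =>
    (mem_normalizer_iff.1 (h4 (norm_of hy)) u).1 hu
  obtain ⟨⟨u, hu⟩, hu1⟩ := (ne_bot_iff_exists_ne_one).1 h3
  have h6 : N = T.E := le_antisymm h2 (T.irr (key _ fun _ _ _ _ => by rw [p_el]; exact T.el_mem ..)
    (key _ fun _ _ _ _ => by rw [q_el]; exact T.el_mem ..) (key _ fun _ _ _ _ => by rw [s_el]; exact T.el_mem ..)
    (key _ fun _ _ _ _ => by rw [t_el]; exact T.el_mem ..) hu (h2 hu) fun e => hu1 (Subtype.ext e))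
  rw [h6, card_E ha, one_mul, show 81 = 3 ^ 4 from rfl, ← pow_mul] at h5
  exact (Nat.pow_le_pow_iff_right (by norm_num)).1 h5

end Str

end Cfsg.Agent.TwoF.XS.O8p
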